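import Mathlib

/-!
# SH3 rung A: a group of order `q (q - 1) (q + 1)`, `q = 2 ^ f`, with exactly `q ^ 2 - 1`
elements of even order, all of them 2-elements, has TI abelian Sylow 2-subgroups.
-/

set_option autoImplicit false
set_option linter.unusedSectionVars false
set_option linter.unusedVariables false
set_option linter.style.haveILetI false

namespace Cfsg.Agent.Lib.Helper66.SH3

/-- the centraliser of an element of even order is a 2-group -/
theorem isPGroup_centralizer {G : Type*} [Group G] [Finite G]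
    (hmix : ∀ g : G, 2 ∣ orderOf g → ∃ k : ℕ, orderOf g = 2 ^ k)
    (t : G) (ht : 2 ∣ orderOf t) : IsPGroup 2 (Subgroup.centralizer ({t} : Set G)) := by
  rintro ⟨y, hy⟩
  obtain ⟨k, hk⟩ := hmix t ht
  have hcomm : Commute t y := (Subgroup.mem_centralizer_singleton_iff.1 hy).symm
  obtain ⟨a, m, hm, hy'⟩ := Nat.exists_eq_two_pow_mul_odd (orderOf_pos y).ne'
  have ho : orderOf (y ^ (2 ^ a)) = m := by
    rw [orderOf_pow_of_dvd (by positivity) (hy' ▸ Dvd.intro _ rfl), hy']
    exact Nat.mul_div_cancel_left _ (by positivity)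
  have hco : (orderOf t).Coprime (orderOf (y ^ (2 ^ a))) := by
    rw [ho, hk]
    exact Nat.Coprime.pow_left _ (Nat.coprime_two_left.2 hm)
  have h1 := (hcomm.pow_right (2 ^ a)).orderOf_mul_eq_mul_orderOf_of_coprime hco
  obtain ⟨j, hj⟩ := hmix (t * y ^ (2 ^ a)) (by rw [h1]; exact Dvd.dvd.mul_right ht _)
  have hm1 : m = 1 := by
    have hd : m ∣ 2 ^ j := by
      rw [← hj, h1, ho]
      exact Dvd.intro_left _ rfl
    exact Nat.Coprime.eq_one_of_dvd (Nat.Coprime.pow_right _ (Nat.coprime_two_right.2 hm)) hd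
  refine ⟨a, Subtype.ext ?_⟩
  rw [hm1, orderOf_eq_one_iff] at ho
  simpa using ho

theorem card_sylow_two {G : Type*} [Group G] [Finite G] (f : ℕ) (hf : 1 ≤ f)
    (hG : Nat.card G = 2 ^ f * (2 ^ f - 1) * (2 ^ f + 1)) (S : Sylow 2 G) :
    Nat.card (S : Subgroup G) = 2 ^ f := by
  haveI : Fact (Nat.Prime 2) := ⟨Nat.prime_two⟩
  have h2 : 2 ≤ 2 ^ f := by
    calc 2 = 2 ^ 1 := rfl
      _ ≤ 2 ^ f := Nat.pow_le_pow_right (by norm_num) hf
  obtain ⟨c, hc⟩ : 2 ∣ 2 ^ f := dvd_pow_self 2 (by omega)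
  have h1 : ¬ 2 ∣ (2 ^ f - 1) := by omega
  have h3 : ¬ 2 ∣ (2 ^ f + 1) := by omega
  rw [Sylow.card_eq_multiplicity, hG]
  congr 1
  have h4 : 2 ^ f - 1 ≠ 0 := by omega
  rw [Nat.factorization_mul (mul_ne_zero (by positivity) h4) (by omega),
    Nat.factorization_mul (by positivity) h4]
  simp [Nat.factorization_eq_zero_of_not_dvd h1, Nat.factorization_eq_zero_of_not_dvd h3,
    Nat.Prime.factorization_self Nat.prime_two]

theorem ti_of_two_elements {G : Type*} [Group G] [Finite G] (f : ℕ) (hf : 1 ≤ f)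
    (hG : Nat.card G = 2 ^ f * (2 ^ f - 1) * (2 ^ f + 1))
    (hmix : ∀ g : G, 2 ∣ orderOf g → ∃ k : ℕ, orderOf g = 2 ^ k)
    (hcnt : Nat.card {g : G // 2 ∣ orderOf g} = (2 ^ f) ^ 2 - 1) :
    (∀ (S : Sylow 2 G) (t : G), t ∈ (S : Subgroup G) → t ≠ 1 →
      Subgroup.centralizer ({t} : Set G) = (S : Subgroup G)) ∧
    Nat.card (Sylow 2 G) = 2 ^ f + 1 := by
  classical
  haveI : Fact (Nat.Prime 2) := ⟨Nat.prime_two⟩
  have hS : ∀ S : Sylow 2 G, Nat.card (S : Subgroup G) = 2 ^ f := card_sylow_two f hf hG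
  have h2 : 2 ≤ 2 ^ f := by
    calc 2 = 2 ^ 1 := rfl
      _ ≤ 2 ^ f := Nat.pow_le_pow_right (by norm_num) hf
  obtain ⟨r, hr⟩ : ∃ r, 2 ^ f = r + 1 := ⟨2 ^ f - 1, by omega⟩
  have hr1 : 1 ≤ r := by omega
  have hdvd2 : 2 ∣ Nat.card G := by
    rw [hG, mul_assoc]
    exact Dvd.dvd.mul_right (dvd_pow_self 2 (by omega)) _
  rw [hr] at hG hcnt hS ⊢
  have e1 : r + 1 - 1 = r := by omega
  have e2 : (r + 1) ^ 2 - 1 = r * (r + 2) := by
    have : (r + 1) ^ 2 = r * (r + 2) + 1 := by ring
    omega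
  rw [e1] at hG
  rw [e2] at hcnt
  have hconj : ∀ (g t : G), orderOf (g * t * g⁻¹) = orderOf t := fun g t => by
    have := (MulAut.conj g).orderOf_eq t
    rwa [MulAut.conj_apply] at this
  -- the class of an element of even order
  have hcl : ∀ t : G, 2 ∣ orderOf t →
      Nat.card (Subgroup.centralizer ({t} : Set G)) = r + 1 ∧
        ∀ e : G, 2 ∣ orderOf e → ∃ g : G, g * t * g⁻¹ = e := by
    intro t ht
    obtain ⟨C, hC⟩ : ∃ C, C = Subgroup.centralizer ({t} : Set G) := ⟨_, rfl⟩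
    rw [← hC]
    have hP : IsPGroup 2 C := hC ▸ isPGroup_centralizer hmix t ht
    obtain ⟨S, hCS⟩ := hP.exists_le_sylow
    have hle : Nat.card C ≤ r + 1 := (hS S) ▸ Subgroup.card_le_of_le hCS
    have hE : ∀ g : G, 2 ∣ orderOf (g * t * g⁻¹) := fun g => by rw [hconj]; exact ht
    have hmemC : ∀ x : G, x ∈ C ↔ x * t = t * x := fun x => by
      rw [hC, Subgroup.mem_centralizer_singleton_iff]
    let φ : G ⧸ C → {g : G // 2 ∣ orderOf g} := fun x =>
      Quotient.liftOn' x (fun g => (⟨g * t * g⁻¹, hE g⟩ : {g : G // 2 ∣ orderOf g})) (by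
        intro a b hab
        rw [QuotientGroup.leftRel_apply, hmemC] at hab
        apply Subtype.ext
        change a * t * a⁻¹ = b * t * b⁻¹
        have : b * t * b⁻¹ = a * (a⁻¹ * b * t) * b⁻¹ := by group
        rw [this, hab]
        group)
    have hφ : Function.Injective φ := by
      intro x y
      refine Quotient.inductionOn₂' x y ?_
      intro a b hab
      have h1 : a * t * a⁻¹ = b * t * b⁻¹ := congrArg Subtype.val hab
      apply Quotient.sound'
      rw [QuotientGroup.leftRel_apply, hmemC]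
      have : a⁻¹ * b * t = a⁻¹ * (b * t * b⁻¹) * b := by group
      rw [this, ← h1]
      group
    have hidx : C.index ≤ r * (r + 2) := by
      rw [← hcnt, Subgroup.index_eq_card]
      exact Nat.card_le_card_of_injective φ hφ
    have hmul : Nat.card C * C.index = (r + 1) * r * (r + 1 + 1) := by
      rw [Subgroup.card_mul_index, hG]
    have hc : Nat.card C = r + 1 := by
      by_contra hne
      have hlt : Nat.card C < r + 1 := lt_of_le_of_ne hle hne
      have h3 : Nat.card C * C.index ≤ r * (r * (r + 2)) :=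
        Nat.mul_le_mul (by omega) hidx
      rw [hmul] at h3
      nlinarith
    refine ⟨hc, ?_⟩
    have hidx' : C.index = r * (r + 2) := by
      rw [hc] at hmul
      have : (r + 1) * C.index = (r + 1) * (r * (r + 2)) := by rw [hmul]; ring
      exact Nat.eq_of_mul_eq_mul_left (by omega) this
    have hbij : Function.Bijective φ := by
      apply hφ.bijective_of_nat_card_le
      rw [hcnt, ← hidx', Subgroup.index_eq_card]
    intro e he
    obtain ⟨x, hx⟩ := hbij.2 ⟨e, he⟩
    induction x using Quotient.inductionOn' with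
    | h g => exact ⟨g, congrArg Subtype.val hx⟩
  -- all elements of even order are involutions
  obtain ⟨t0, ht0⟩ := exists_prime_orderOf_dvd_card' 2 hdvd2
  have hinv : ∀ e : G, 2 ∣ orderOf e → orderOf e = 2 := by
    intro e he
    obtain ⟨g, hg⟩ := (hcl t0 (by rw [ht0])).2 e he
    rw [← hg, hconj, ht0]
  have heven : ∀ (S : Sylow 2 G) (x : G), x ∈ (S : Subgroup G) → x ≠ 1 → 2 ∣ orderOf x := by
    intro S x hx hx1
    obtain ⟨k, hk⟩ := (IsPGroup.iff_orderOf.1 S.2) ⟨x, hx⟩
    rw [Subgroup.orderOf_mk] at hk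
    rw [hk]
    apply dvd_pow_self
    rintro rfl
    rw [pow_zero, orderOf_eq_one_iff] at hk
    exact hx1 hk
  have hsq : ∀ (S : Sylow 2 G) (x : G), x ∈ (S : Subgroup G) → x * x = 1 := by
    intro S x hx
    by_cases hx1 : x = 1
    · rw [hx1, one_mul]
    · have := hinv x (heven S x hx hx1)
      rw [← sq, ← this, pow_orderOf_eq_one]
  have hcent : ∀ (S : Sylow 2 G) (t : G), t ∈ (S : Subgroup G) → t ≠ 1 →
      Subgroup.centralizer ({t} : Set G) = (S : Subgroup G) := by
    intro S t ht ht1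
    symm
    apply Subgroup.eq_of_le_of_card_ge
    · intro x hx
      rw [Subgroup.mem_centralizer_singleton_iff]
      have h1 := hsq S x hx
      have h2 := hsq S t ht
      have h3 := hsq S (x * t) (mul_mem hx ht)
      calc x * t = (x * t)⁻¹ := eq_inv_of_mul_eq_one_left h3
        _ = t⁻¹ * x⁻¹ := mul_inv_rev _ _
        _ = t * x := by
          rw [← eq_inv_of_mul_eq_one_left h1, ← eq_inv_of_mul_eq_one_left h2]
    · rw [(hcl t (heven S t ht ht1)).1, hS S]
  refine ⟨hcent, ?_⟩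
  -- the count
  let ψ : (Σ S : Sylow 2 G, {t : G // t ∈ (S : Subgroup G) ∧ t ≠ 1}) → {g : G // 2 ∣ orderOf g} :=
    fun x => ⟨x.2.1, heven x.1 x.2.1 x.2.2.1 x.2.2.2⟩
  have hψ : Function.Bijective ψ := by
    constructor
    · rintro ⟨S, t, ht, ht1⟩ ⟨S', t', ht', ht1'⟩ h
      have h1 : t = t' := congrArg Subtype.val h
      subst h1
      have h2 : S = S' := Sylow.ext ((hcent S t ht ht1).symm.trans (hcent S' t ht' ht1))
      subst h2
      rfl
    · rintro ⟨e, he⟩
      have hP : IsPGroup 2 (Subgroup.zpowers e) := by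
        rw [IsPGroup.iff_card]
        exact ⟨1, by rw [Nat.card_zpowers, hinv e he, pow_one]⟩
      obtain ⟨S, hS'⟩ := hP.exists_le_sylow
      refine ⟨⟨S, e, hS' (Subgroup.mem_zpowers e), ?_⟩, rfl⟩
      rintro rfl
      rw [orderOf_one] at he
      omega
  haveI := Fintype.ofFinite (Sylow 2 G)
  have hfib : ∀ S : Sylow 2 G, Nat.card {t : G // t ∈ (S : Subgroup G) ∧ t ≠ 1} = r := by
    intro S
    have e : {t : G // t ∈ (S : Subgroup G) ∧ t ≠ 1} ≃
        {x : (S : Subgroup G) // x ≠ 1} :=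
      { toFun := fun t => ⟨⟨t.1, t.2.1⟩, fun h => t.2.2 (congrArg Subtype.val h)⟩
        invFun := fun x => ⟨x.1.1, x.1.2, fun h => x.2 (Subtype.ext h)⟩
        left_inv := fun t => rfl
        right_inv := fun x => rfl }
    rw [Nat.card_congr e]
    haveI := Fintype.ofFinite (S : Subgroup G)
    rw [Nat.card_eq_fintype_card, Fintype.card_subtype_compl, Fintype.card_subtype_eq,
      ← Nat.card_eq_fintype_card, hS S]
    omega
  have hsum := Nat.card_congr (Equiv.ofBijective ψ hψ)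
  rw [Nat.card_sigma, hcnt] at hsum
  simp only [hfib, Finset.sum_const, Finset.card_univ, smul_eq_mul] at hsum
  rw [← Nat.card_eq_fintype_card] at hsum
  have : r * Nat.card (Sylow 2 G) = r * (r + 2) := by rw [← hsum]; ring
  exact Nat.eq_of_mul_eq_mul_left (by omega) this

end Cfsg.Agent.Lib.Helper66.SH3
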