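import Cfsg.Agent.Lib.Helper12.S3TBasic
import Cfsg.Agent.Lib.Helper66.SH3A

/-!
# SH3 rung B: a group of order `q (q - 1) (q + 1)`, `q = 2 ^ f`, with `q + 1` Sylow 2-subgroups
which are the centralisers of their nonidentity elements is sharply 3-transitive on them.
-/

set_option autoImplicit false
set_option linter.unusedSectionVars false
set_option linter.unusedVariables false
set_option linter.style.haveILetI false

namespace Cfsg.Agent.Lib.Helper66.SH3

theorem sharp3_of_ti {G : Type*} [Group G] [Finite G] (f : ℕ) (hf : 1 ≤ f)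
    (hG : Nat.card G = 2 ^ f * (2 ^ f - 1) * (2 ^ f + 1))
    (hC : ∀ (S : Sylow 2 G) (t : G), t ∈ (S : Subgroup G) → t ≠ 1 →
      Subgroup.centralizer ({t} : Set G) = (S : Subgroup G))
    (hn : Nat.card (Sylow 2 G) = 2 ^ f + 1) :
    Cfsg.Agent.Lib.Helper12.S3T.Sharp3 G (Sylow 2 G) := by
  classical
  haveI : Fact (Nat.Prime 2) := ⟨Nat.prime_two⟩
  have hS : ∀ S : Sylow 2 G, Nat.card (S : Subgroup G) = 2 ^ f := card_sylow_two f hf hG
  have h2 : 2 ≤ 2 ^ f := by
    calc 2 = 2 ^ 1 := rfl
      _ ≤ 2 ^ f := Nat.pow_le_pow_right (by norm_num) hf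
  obtain ⟨r, hr⟩ : ∃ r, 2 ^ f = r + 1 := ⟨2 ^ f - 1, by omega⟩
  have hr1 : 1 ≤ r := by omega
  rw [hr] at hG hS hn
  have e1 : r + 1 - 1 = r := by omega
  rw [e1] at hG
  -- (1) freeness of S on the other points
  have hfree : ∀ (S S' : Sylow 2 G) (s : G), s ∈ (S : Subgroup G) → S' ≠ S → s • S' = S' →
      s = 1 := by
    intro S S' s hs hne hfix
    by_contra hs1
    rw [Sylow.smul_eq_iff_mem_normalizer] at hfix
    have h1 : s ∈ (S : Subgroup G) ⊓ (S' : Subgroup G) := by
      rw [← IsPGroup.inf_normalizer_sylow S.2 S']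
      exact ⟨hs, hfix⟩
    exact hne (Sylow.ext ((hC S' s h1.2 hs1).symm.trans (hC S s hs hs1)))
  have hself : ∀ (S : Sylow 2 G) (s : G), s ∈ (S : Subgroup G) → s • S = S := by
    intro S s hs
    rw [Sylow.smul_eq_iff_mem_normalizer]
    exact Subgroup.le_normalizer hs
  -- (2) regularity
  have hreg : ∀ (S S' S'' : Sylow 2 G), S' ≠ S → S'' ≠ S →
      ∃ s : G, s ∈ (S : Subgroup G) ∧ s • S' = S'' := by
    intro S S' S'' h' h''
    let φ : ↥(S : Subgroup G) → {T : Sylow 2 G // T ≠ S} := fun s => ⟨s.1 • S', by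
      intro h
      apply h'
      have : s.1 • S' = s.1 • S := by rw [h, hself S s.1 s.2]
      exact smul_left_cancel _ this⟩
    have hφ : Function.Injective φ := by
      intro s s' h
      have h1 : s.1 • S' = s'.1 • S' := congrArg Subtype.val h
      have h3 : (s'.1⁻¹ * s.1) • S' = S' := by rw [mul_smul, h1, inv_smul_smul]
      have h4 := hfree S S' _ (mul_mem (inv_mem s'.2) s.2) h' h3
      exact Subtype.ext (inv_mul_eq_one.1 h4).symm
    have hbij : Function.Bijective φ := by
      apply hφ.bijective_of_nat_card_le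
      haveI := Fintype.ofFinite (Sylow 2 G)
      rw [hS S, Nat.card_eq_fintype_card, Fintype.card_subtype_compl, Fintype.card_subtype_eq,
        ← Nat.card_eq_fintype_card, hn]
      omega
    obtain ⟨s, hs⟩ := hbij.2 ⟨S'', h''⟩
    exact ⟨s.1, s.2, congrArg Subtype.val hs⟩
  -- (4) only the identity fixes three points
  have hfree3 : ∀ (g : G) (a b c : Sylow 2 G), a ≠ b → a ≠ c → b ≠ c → g • a = a → g • b = b →
      g • c = c → g = 1 := by
    intro g a b c hab hac hbc ha hb hc
    obtain ⟨s, hs, hsb⟩ := hreg a b c hab.symm hac.symm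
    have hs1 : s ≠ 1 := by
      rintro rfl
      rw [one_smul] at hsb
      exact hbc hsb
    have hgN : g ∈ Subgroup.normalizer (a : Subgroup G) := Sylow.smul_eq_iff_mem_normalizer.1 ha
    have hconj : g * s * g⁻¹ ∈ (a : Subgroup G) := (Subgroup.mem_normalizer_iff.1 hgN s).1 hs
    have hb' : g⁻¹ • b = b := by rw [inv_smul_eq_iff, hb]
    have h1 : (g * s * g⁻¹) • b = s • b := by
      rw [mul_smul, mul_smul, hb', hsb, hc]
    have h3 : (s⁻¹ * (g * s * g⁻¹)) • b = b := by rw [mul_smul, h1, inv_smul_smul]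
    have h4 := hfree a b _ (mul_mem (inv_mem hs) hconj) hab.symm h3
    have h5 : g * s * g⁻¹ = s := (inv_mul_eq_one.1 h4).symm
    have h6 : g ∈ Subgroup.centralizer ({s} : Set G) := by
      rw [Subgroup.mem_centralizer_singleton_iff]
      calc g * s = g * s * g⁻¹ * g := by group
        _ = s * g := by rw [h5]
    rw [hC a s hs hs1] at h6
    exact hfree a b g h6 hab.symm hb
  refine ⟨?_, hfree3⟩
  -- (5) counting triples
  intro a b c a' b' c' hab hac hbc hab' hac' hbc'
  have hinj : ∀ x y z : Sylow 2 G, x ≠ y → x ≠ z → y ≠ z →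
      Function.Injective (![x, y, z] : Fin 3 → Sylow 2 G) := by
    intro x y z hxy hxz hyz i j hij
    fin_cases i <;> fin_cases j <;> simp_all
  let φ : G → (Fin 3 ↪ Sylow 2 G) := fun g => ⟨![g • a, g • b, g • c],
    hinj _ _ _ (fun h => hab (smul_left_cancel g h)) (fun h => hac (smul_left_cancel g h))
      (fun h => hbc (smul_left_cancel g h))⟩
  have hφ : Function.Injective φ := by
    intro g g' h
    have h0 : ∀ i, φ g i = φ g' i := fun i => by rw [h]
    have ha : g • a = g' • a := h0 0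
    have hb : g • b = g' • b := h0 1
    have hc : g • c = g' • c := h0 2
    have := hfree3 (g'⁻¹ * g) a b c hab hac hbc (by rw [mul_smul, ha, inv_smul_smul])
      (by rw [mul_smul, hb, inv_smul_smul]) (by rw [mul_smul, hc, inv_smul_smul])
    exact (inv_mul_eq_one.1 this).symm
  have hbij : Function.Bijective φ := by
    apply hφ.bijective_of_nat_card_le
    haveI := Fintype.ofFinite (Sylow 2 G)
    rw [hG, Nat.card_eq_fintype_card, Fintype.card_embedding_eq, ← Nat.card_eq_fintype_card, hn,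
      Fintype.card_fin]
    simp only [Nat.descFactorial]
    apply le_of_eq
    have e3 : r + 1 + 1 - 2 = r := by omega
    have e4 : r + 1 + 1 - 1 = r + 1 := by omega
    simp only [e3, e4, Nat.sub_zero]
    ring
  obtain ⟨g, hg⟩ := hbij.2 ⟨![a', b', c'], hinj _ _ _ hab' hac' hbc'⟩
  have h0 : ∀ i, φ g i = (![a', b', c'] : Fin 3 → Sylow 2 G) i := fun i => by rw [hg]; rfl
  exact ⟨g, h0 0, h0 1, h0 2⟩

end Cfsg.Agent.Lib.Helper66.SH3
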