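import Mathlib
import Cfsg.Agent.Lib.Helper18.AutPSL.H90
import Cfsg.Agent.Lib.Helper50.QuadIso

set_option autoImplicit false
set_option linter.unusedSectionVars false
set_option linter.unusedVariables false

/-!
# The Lang step for orthogonal groups, generic part

`g` a similarity of a quadratic form `Q` on `F^ι` whose coefficients are fixed by the field
automorphism `σ`, with `g σ(g) ⋯ σ^{r-1}(g) = 1`.  The fixed points `W` of the semilinear map
`v ↦ g σ(v)` form a vector space over `F₀ = Fix(σ)` of the full dimension, and a scalar multiple of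
`Q` restricts to a non-degenerate `F₀`-valued quadratic form on it.
-/

namespace Cfsg.Agent.Lib.Helper66.OLang

open Matrix QuadraticMap Module
open Cfsg.Agent.Lib.Helper18.AutPSL (mp mp_apply nrm nrmS hilbert90 hilbert90_one)
open Cfsg.Agent.Lib.Helper50.Quad

variable {ι : Type} [Fintype ι] [DecidableEq ι] {F : Type*} [Field F]

/-- a field automorphism applied entrywise to a vector -/
def sv (σ : F ≃+* F) (v : ι → F) : ι → F := fun i => σ (v i)

omit [Fintype ι] [DecidableEq ι] in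
@[simp] theorem sv_apply (σ : F ≃+* F) (v : ι → F) (i : ι) : sv σ v i = σ (v i) := rfl

omit [Fintype ι] [DecidableEq ι] in
theorem sv_add (σ : F ≃+* F) (u v : ι → F) : sv σ (u + v) = sv σ u + sv σ v := by
  ext i; simp

omit [Fintype ι] [DecidableEq ι] in
theorem sv_smul (σ : F ≃+* F) (a : F) (v : ι → F) : sv σ (a • v) = σ a • sv σ v := by
  ext i; simp

omit [Fintype ι] in
theorem sv_single (σ : F ≃+* F) (s : ι) : sv σ (Pi.single s (1 : F)) = Pi.single s 1 := by
  ext i
  by_cases h : i = s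
  · subst h; simp
  · simp [h]

theorem sv_mulVec (σ : F ≃+* F) (b : Matrix ι ι F) (v : ι → F) :
    sv σ (b *ᵥ v) = mp σ b *ᵥ sv σ v := by
  ext i
  exact RingHom.map_mulVec (σ : F →+* F) b v i

/-- the semilinear map `v ↦ g σ(v)` -/
def phi (σ : F ≃+* F) (g : Matrix ι ι F) (v : ι → F) : ι → F := g *ᵥ sv σ v

theorem phi_add (σ : F ≃+* F) (g : Matrix ι ι F) (u v : ι → F) :
    phi σ g (u + v) = phi σ g u + phi σ g v := by
  unfold phi; rw [sv_add, Matrix.mulVec_add]

theorem phi_smul (σ : F ≃+* F) (g : Matrix ι ι F) (a : F) (v : ι → F) :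
    phi σ g (a • v) = σ a • phi σ g v := by
  unfold phi; rw [sv_smul, Matrix.mulVec_smul]

/-- the fixed field -/
abbrev fixF (σ : F ≃+* F) : Subfield F := RingHom.eqLocusField (σ : F →+* F) (RingHom.id F)

theorem mem_fixF {σ : F ≃+* F} {x : F} : x ∈ fixF σ ↔ σ x = x := Iff.rfl

noncomputable instance fixFintype (σ : F ≃+* F) [Finite F] : Fintype ↥(fixF σ) := Fintype.ofFinite _

/-- the fixed points of `v ↦ g σ(v)`, a vector space over the fixed field -/
def fixW (σ : F ≃+* F) (g : Matrix ι ι F) : Submodule ↥(fixF σ) (ι → F) where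
  carrier := {v | phi σ g v = v}
  add_mem' {u v} hu hv := by
    show phi σ g (u + v) = u + v
    rw [phi_add, hu, hv]
  zero_mem' := by
    show phi σ g 0 = 0
    have := phi_smul σ g 0 0
    simpa using this
  smul_mem' a v hv := by
    show phi σ g (a • v) = a • v
    have h1 : (a • v : ι → F) = (a : F) • v := rfl
    have ha : σ (a : F) = a := a.2
    rw [h1, phi_smul, hv, ha]

theorem mem_fixW {σ : F ≃+* F} {g : Matrix ι ι F} {v : ι → F} :
    v ∈ fixW σ g ↔ phi σ g v = v := Iff.rfl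

/-- matrices agreeing on the standard basis are equal -/
theorem matrix_ext_single {A B : Matrix ι ι F}
    (h : ∀ s, A *ᵥ (Pi.single s (1 : F)) = B *ᵥ (Pi.single s 1)) : A = B := by
  ext i s
  have := congrFun (h s) i
  simpa using this

theorem mul_mp_mulVec_single (σ : F ≃+* F) (g b : Matrix ι ι F) (s : ι) :
    (g * mp σ b) *ᵥ (Pi.single s (1 : F)) = phi σ g (b *ᵥ Pi.single s 1) := by
  unfold phi
  rw [sv_mulVec, sv_single, Matrix.mulVec_mulVec]

section descent

variable (σ : F ≃+* F) (g b₀ : Matrix ι ι F) (hb₀ : b₀.det ≠ 0) (hgb : g * mp σ b₀ = b₀)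

include hgb in
theorem phi_mulVec (w : ι → F) : phi σ g (b₀ *ᵥ w) = b₀ *ᵥ sv σ w := by
  unfold phi
  rw [sv_mulVec, Matrix.mulVec_mulVec, hgb]

include hgb in
theorem col_mem_fixW (s : ι) : b₀ *ᵥ (Pi.single s (1 : F)) ∈ fixW σ g := by
  rw [mem_fixW, phi_mulVec σ g b₀ hgb, sv_single]

include hb₀ hgb in
/-- the fixed space is a copy of `F₀^ι` -/
theorem card_fixW [Fintype F] :
    Nat.card ↥(fixW σ g) = Fintype.card ↥(fixF σ) ^ Fintype.card ι := by
  have hinj : Function.Injective (fun w : ι → F => b₀ *ᵥ w) :=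
    Matrix.mulVec_injective_iff_isUnit.2 ((Matrix.isUnit_iff_isUnit_det _).2 (isUnit_iff_ne_zero.2 hb₀))
  have hsurj : Function.Surjective (fun w : ι → F => b₀ *ᵥ w) :=
    Matrix.mulVec_surjective_iff_isUnit.2 ((Matrix.isUnit_iff_isUnit_det _).2 (isUnit_iff_ne_zero.2 hb₀))
  let e : (ι → ↥(fixF σ)) → ↥(fixW σ g) := fun w =>
    ⟨b₀ *ᵥ (fun i => (w i : F)), by
      rw [mem_fixW, phi_mulVec σ g b₀ hgb]
      congr 1
      ext i
      exact (w i).2⟩
  have he : Function.Bijective e := by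
    constructor
    · intro w w' h
      have h1 := hinj (congrArg Subtype.val h)
      ext i
      exact congrFun h1 i
    · rintro ⟨v, hv⟩
      obtain ⟨w, rfl⟩ := hsurj v
      simp only at hv
      rw [mem_fixW, phi_mulVec σ g b₀ hgb] at hv
      have h1 := hinj hv
      exact ⟨fun i => ⟨w i, congrFun h1 i⟩, rfl⟩
  rw [← Nat.card_congr (Equiv.ofBijective e he), Nat.card_eq_fintype_card, Fintype.card_fun]

end descent

section form

variable (σ : F ≃+* F) (g : Matrix ι ι F) (Q : QuadraticForm F (ι → F))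
  (hσQ : ∀ v, Q (sv σ v) = σ (Q v)) (c d : F) (hg : ∀ v, Q (g *ᵥ v) = c * Q v)
  (hd0 : d ≠ 0) (hd : c * σ d = d)

include hσQ hg hd0 hd in
theorem Q2_phi (v : ι → F) : (d⁻¹ • Q) (phi σ g v) = σ ((d⁻¹ • Q) v) := by
  have hσd : σ d ≠ 0 := by simpa using hd0
  simp only [_root_.smul_apply, smul_eq_mul, map_mul, map_inv₀]
  unfold phi
  rw [hg, hσQ, ← mul_assoc]
  congr 1
  field_simp
  exact hd

include hσQ hg hd0 hd in
theorem Q2_mem_fix {v : ι → F} (hv : v ∈ fixW σ g) : (d⁻¹ • Q) v ∈ fixF σ := by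
  rw [mem_fixF, ← Q2_phi σ g Q hσQ c d hg hd0 hd, mem_fixW.1 hv]

include hσQ hg hd0 hd in
theorem polar2_mem_fix {u v : ι → F} (hu : u ∈ fixW σ g) (hv : v ∈ fixW σ g) :
    polar (d⁻¹ • Q) u v ∈ fixF σ := by
  unfold polar
  exact sub_mem (sub_mem (Q2_mem_fix σ g Q hσQ c d hg hd0 hd (add_mem hu hv))
    (Q2_mem_fix σ g Q hσQ c d hg hd0 hd hu)) (Q2_mem_fix σ g Q hσQ c d hg hd0 hd hv)

/-- an `F₀`-linear retraction `F → F₀` -/
theorem exists_retraction : ∃ π : F →ₗ[↥(fixF σ)] ↥(fixF σ), ∀ x : ↥(fixF σ), π (x : F) = x := by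
  obtain ⟨π, hπ⟩ := LinearMap.exists_leftInverse_of_injective
    (Algebra.linearMap ↥(fixF σ) F) (LinearMap.ker_eq_bot.2 (algebraMap ↥(fixF σ) F).injective)
  exact ⟨π, fun x => LinearMap.congr_fun hπ x⟩

/-- the restricted form -/
noncomputable def Qr (π : F →ₗ[↥(fixF σ)] ↥(fixF σ)) (P : QuadraticForm F (ι → F)) :
    QuadraticForm ↥(fixF σ) (ι → F) :=
  π.compQuadraticMap (QuadraticMap.restrictScalars (S := ↥(fixF σ)) P)

theorem Qr_apply (π : F →ₗ[↥(fixF σ)] ↥(fixF σ)) (P : QuadraticForm F (ι → F)) (v : ι → F) :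
    Qr σ π P v = π (P v) := rfl

theorem Qr_polar (π : F →ₗ[↥(fixF σ)] ↥(fixF σ)) (P : QuadraticForm F (ι → F)) (u v : ι → F) :
    polar (Qr σ π P) u v = π (polar P u v) := by
  unfold polar
  rw [Qr_apply, Qr_apply, Qr_apply, map_sub, map_sub]

theorem Qr_coe (π : F →ₗ[↥(fixF σ)] ↥(fixF σ)) (hπ : ∀ x : ↥(fixF σ), π (x : F) = x)
    (P : QuadraticForm F (ι → F)) {v : ι → F} (hv : P v ∈ fixF σ) :
    ((Qr σ π P v : ↥(fixF σ)) : F) = P v := by
  rw [Qr_apply]
  have := hπ ⟨P v, hv⟩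
  simp only at this
  rw [this]

theorem Qr_polar_coe (π : F →ₗ[↥(fixF σ)] ↥(fixF σ)) (hπ : ∀ x : ↥(fixF σ), π (x : F) = x)
    (P : QuadraticForm F (ι → F)) {u v : ι → F} (hv : polar P u v ∈ fixF σ) :
    ((polar (Qr σ π P) u v : ↥(fixF σ)) : F) = polar P u v := by
  rw [Qr_polar]
  have := hπ ⟨polar P u v, hv⟩
  simp only at this
  rw [this]

end form

end Cfsg.Agent.Lib.Helper66.OLang
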