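import Mathlib
import Cfsg.Agent.Lib.Helper66.OLangA

set_option autoImplicit false
set_option linter.unusedSectionVars false
set_option linter.unusedVariables false

/-!
# The Lang step for orthogonal groups: existence of fixed standard frames
-/

namespace Cfsg.Agent.Lib.Helper66.OLang

open Matrix QuadraticMap Module
open Cfsg.Agent.Lib.Helper18.AutPSL (mp mp_apply nrm nrm_zero nrm_succ nrmS nrmS_zero nrmS_succ
  hilbert90 hilbert90_one)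
open Cfsg.Agent.Lib.Helper50.Quad

variable {ι : Type} [Fintype ι] [DecidableEq ι] {F : Type*} [Field F]

omit [Fintype ι] [DecidableEq ι] in
theorem sv_symm_sv (σ : F ≃+* F) (v : ι → F) : sv σ (sv σ.symm v) = v := by
  ext i; simp

/-- the multiplier of the partial norms -/
theorem Q_nrm (σ : F ≃+* F) (g : Matrix ι ι F) (Q : QuadraticForm F (ι → F))
    (hσQ : ∀ v, Q (sv σ v) = σ (Q v)) (c : F) (hg : ∀ v, Q (g *ᵥ v) = c * Q v) (k : ℕ) :
    ∀ v, Q (nrm σ g k *ᵥ v) = nrmS σ c k * Q v := by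
  induction k with
  | zero => intro v; simp [nrm_zero, nrmS_zero]
  | succ k ih =>
    intro v
    rw [nrm_succ, nrmS_succ, ← Matrix.mulVec_mulVec, hg]
    have h1 : mp σ (nrm σ g k) *ᵥ v = sv σ (nrm σ g k *ᵥ sv σ.symm v) := by
      rw [sv_mulVec, sv_symm_sv]
    rw [h1, hσQ, ih, map_mul, ← hσQ, sv_symm_sv, mul_assoc]

theorem exists_Q_ne_zero [Nonempty ι] (Q : QuadraticForm F (ι → F))
    (hQ : (polarBilin Q).Nondegenerate) : ∃ v, Q v ≠ 0 := by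
  by_contra hcon
  push Not at hcon
  obtain ⟨s⟩ := ‹Nonempty ι›
  have h1 : (Pi.single s (1 : F) : ι → F) = 0 := by
    apply hQ.1
    intro y
    rw [polarBilin_apply_apply]
    unfold polar
    rw [hcon, hcon, hcon]; simp
  have := congrFun h1 s
  simp at this

theorem coe_T2 (σ : F ≃+* F) (a b : ↥(fixF σ)) (s : Fin 2 → ↥(fixF σ)) :
    ((T2 1 a b s : ↥(fixF σ)) : F) = T2 1 (a : F) (b : F) (fun k => (s k : F)) := by
  rw [T2_apply, T2_apply]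
  push_cast
  rfl

theorem coe_T2_polar (σ : F ≃+* F) (a b : ↥(fixF σ)) (s t : Fin 2 → ↥(fixF σ)) :
    ((polar (T2 1 a b) s t : ↥(fixF σ)) : F) =
      polar (T2 1 (a : F) (b : F)) (fun k => (s k : F)) (fun k => (t k : F)) := by
  rw [T2_polar, T2_polar]
  push_cast
  rfl

theorem coe_single (σ : F ≃+* F) (k : Fin 2) :
    (fun l => (((Pi.single k 1 : Fin 2 → ↥(fixF σ)) l : ↥(fixF σ)) : F)) = Pi.single k 1 := by
  ext l
  by_cases h : l = k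
  · subst h; simp
  · simp [h]

section main

variable [Fintype F]

/-- transfer of a full frame from the fixed space to the whole space -/
theorem full_transfer {τ : Type} (σ : F ≃+* F) (g : Matrix ι ι F) (P : QuadraticForm F (ι → F))
    (π : F →ₗ[↥(fixF σ)] ↥(fixF σ)) (hπ : ∀ x : ↥(fixF σ), π (x : F) = x)
    (hP : ∀ v ∈ fixW σ g, P v ∈ fixF σ)
    (hP2 : ∀ u ∈ fixW σ g, ∀ v ∈ fixW σ g, polar P u v ∈ fixF σ)
    (Tl₀ : (τ → (ι → F)) → Prop) (Tl₁ : (τ → (ι → F)) → Prop) (n : ℕ)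
    (x : ((Fin n → (ι → F)) × (Fin n → (ι → F))) × (τ → (ι → F)))
    (hT : (∀ k, x.2 k ∈ fixW σ g) → Tl₀ x.2 → Tl₁ x.2)
    (h : IsFull (Qr σ π P) Tl₀ n (fixW σ g) x) : IsFull P Tl₁ n ⊤ x := by
  obtain ⟨⟨m1, m2, m3⟩, ⟨q1, q2⟩, ⟨p1, p2, p3⟩, ⟨p4, p5⟩, ht⟩ := h
  have cq : ∀ v ∈ fixW σ g, Qr σ π P v = 0 → P v = 0 := by
    intro v hv h0
    rw [← Qr_coe σ π hπ P (hP v hv), h0]; rfl
  have cp : ∀ u ∈ fixW σ g, ∀ v ∈ fixW σ g, ∀ z : ↥(fixF σ), polar (Qr σ π P) u v = z →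
      polar P u v = z := by
    intro u hu v hv z h0
    rw [← Qr_polar_coe σ π hπ P (hP2 u hu v hv), h0]
  refine ⟨⟨fun _ => trivial, fun _ => trivial, fun _ => trivial⟩,
    ⟨fun i => cq _ (m1 i) (q1 i), fun i => cq _ (m2 i) (q2 i)⟩,
    ⟨fun i j => ?_, fun i j => ?_, fun i j => ?_⟩, ⟨fun i k => ?_, fun i k => ?_⟩, hT m3 ht⟩
  · simpa using cp _ (m1 i) _ (m1 j) _ (p1 i j)
  · simpa using cp _ (m2 i) _ (m2 j) _ (p2 i j)
  · have := cp _ (m1 i) _ (m2 j) _ (p3 i j)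
    rw [this]
    split_ifs <;> simp
  · simpa using cp _ (m1 i) _ (m3 k) _ (p4 i k)
  · simpa using cp _ (m2 i) _ (m3 k) _ (p5 i k)

/-- **Existence of fixed standard frames.** -/
theorem exists_full (σ : F ≃+* F) (r : ℕ) (hr0 : 0 < r) (hr : orderOf σ = r)
    (g : Matrix ι ι F) (Q : QuadraticForm F (ι → F)) (hQ : (polarBilin Q).Nondegenerate)
    (hσQ : ∀ v, Q (sv σ v) = σ (Q v)) (c : F) (hg : ∀ v, Q (g *ᵥ v) = c * Q v)
    (hN : nrm σ g r = 1) (k : ℕ) (hι : Fintype.card ι = 2 * (k + 1)) (a b : F)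
    (ha : σ a = a) (hb : σ b = b)
    (hab : ∀ z₁ z₂ : F, σ z₁ = z₁ → σ z₂ = z₂ → z₁ ^ 2 + a * z₁ * z₂ + b * z₂ ^ 2 = 0 →
      z₁ = 0 ∧ z₂ = 0) :
    ∃ d : F, d ≠ 0 ∧
      ((∃ x : ((Fin (k + 1) → (ι → F)) × (Fin (k + 1) → (ι → F))) × (Empty → (ι → F)),
          IsFull (d⁻¹ • Q) (Tl (d⁻¹ • Q) (T0 F)) (k + 1) ⊤ x ∧
          (∀ i, phi σ g (x.1.1 i) = x.1.1 i) ∧ (∀ i, phi σ g (x.1.2 i) = x.1.2 i)) ∨
       (∃ x : ((Fin k → (ι → F)) × (Fin k → (ι → F))) × (Fin 2 → (ι → F)),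
          IsFull (d⁻¹ • Q) (Tl (d⁻¹ • Q) (T2 1 a b)) k ⊤ x ∧
          (∀ i, phi σ g (x.1.1 i) = x.1.1 i) ∧ (∀ i, phi σ g (x.1.2 i) = x.1.2 i) ∧
          (∀ j, phi σ g (x.2 j) = x.2 j))) := by
  haveI : Nonempty ι := by
    rw [← Fintype.card_pos_iff, hι]; omega
  obtain ⟨b₀, hb₀, hgb⟩ := hilbert90 σ g r hr0 hr hN
  obtain ⟨v₀, hv₀⟩ := exists_Q_ne_zero Q hQ
  have hc : nrmS σ c r = 1 := by
    have := Q_nrm σ g Q hσQ c hg r v₀
    rw [hN, Matrix.one_mulVec] at this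
    exact (mul_right_cancel₀ hv₀ (by rw [one_mul]; exact this)).symm
  obtain ⟨d, hd0, hd⟩ := hilbert90_one σ c r hr0 hr hc
  obtain ⟨π, hπ⟩ := exists_retraction σ
  have hP := fun v (hv : v ∈ fixW σ g) => Q2_mem_fix σ g Q hσQ c d hg hd0 hd hv
  have hP2 := fun u (hu : u ∈ fixW σ g) v (hv : v ∈ fixW σ g) =>
    polar2_mem_fix σ g Q hσQ c d hg hd0 hd hu hv
  -- non-degeneracy on the fixed space
  have hnd : Nondeg (Qr σ π (d⁻¹ • Q)) (fixW σ g) := by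
    intro w hw hw0
    by_contra hcon
    push Not at hcon
    apply hw0
    apply hQ.1
    intro y
    have hsurj : Function.Surjective (fun w : ι → F => b₀ *ᵥ w) :=
      Matrix.mulVec_surjective_iff_isUnit.2
        ((Matrix.isUnit_iff_isUnit_det _).2 (isUnit_iff_ne_zero.2 hb₀))
    obtain ⟨y', rfl⟩ := hsurj y
    simp only
    have hcol : ∀ s, polar Q w (b₀ *ᵥ Pi.single s 1) = 0 := by
      intro s
      have hs := col_mem_fixW σ g b₀ hgb s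
      have h1 := hcon _ hs
      have h2 := Qr_polar_coe σ π hπ (d⁻¹ • Q) (hP2 w hw _ hs)
      rw [h1] at h2
      have h3 : polar (d⁻¹ • Q) w (b₀ *ᵥ Pi.single s 1) = d⁻¹ * polar Q w (b₀ *ᵥ Pi.single s 1) := by
        rw [show ⇑(d⁻¹ • Q) = d⁻¹ • ⇑Q from rfl, polar_smul]; rfl
      rw [h3] at h2
      have h4 : d⁻¹ * polar Q w (b₀ *ᵥ Pi.single s 1) = 0 := h2.symm
      rcases mul_eq_zero.1 h4 with h5 | h5
      · exact absurd h5 (inv_ne_zero hd0)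
      · exact h5
    have hy : b₀ *ᵥ y' = ∑ s, y' s • (b₀ *ᵥ Pi.single s 1) := by
      conv_lhs => rw [eq_sum_single y', Matrix.mulVec_sum]
      apply Finset.sum_congr rfl
      intro s _
      rw [Matrix.mulVec_smul]
    rw [hy, map_sum]
    apply Finset.sum_eq_zero
    intro s _
    rw [map_smul, polarBilin_apply_apply, hcol, smul_zero]
  have hcard : Nat.card ↥(fixW σ g) = Fintype.card ↥(fixF σ) ^ (2 * (k + 1)) := by
    rw [card_fixW σ g b₀ hb₀ hgb, hι]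
  have hab₀ : ∀ z₁ z₂ : ↥(fixF σ), z₁ ^ 2 + (⟨a, ha⟩ : ↥(fixF σ)) * z₁ * z₂ +
      (⟨b, hb⟩ : ↥(fixF σ)) * z₂ ^ 2 = 0 → z₁ = 0 ∧ z₂ = 0 := by
    intro z₁ z₂ h
    have h1 := congrArg (Subtype.val) h
    have h2 := hab z₁ z₂ z₁.2 z₂.2 (by simpa using h1)
    exact ⟨Subtype.ext h2.1, Subtype.ext h2.2⟩
  refine ⟨d, hd0, ?_⟩
  rcases exists_frame_even2 (Q := Qr σ π (d⁻¹ • Q)) _ _ hab₀ k (fixW σ g) hnd hcard with
    ⟨x, hx⟩ | ⟨x, hx⟩
  · left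
    exact ⟨x, full_transfer σ g _ π hπ hP hP2 _ _ _ x (fun _ _ => Tl_T0 _) hx,
      fun i => hx.1.1 i, fun i => hx.1.2.1 i⟩
  · right
    refine ⟨x, full_transfer σ g _ π hπ hP hP2 _ _ _ x ?_ hx,
      fun i => hx.1.1 i, fun i => hx.1.2.1 i, fun j => hx.1.2.2 j⟩
    rintro hm ⟨t1, t2⟩
    constructor
    · intro j
      rw [← Qr_coe σ π hπ _ (hP _ (hm j)), t1, coe_T2, coe_single]
    · intro j l
      rw [← Qr_polar_coe σ π hπ _ (hP2 _ (hm j) _ (hm l)), t2, coe_T2_polar, coe_single, coe_single]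

end main

end Cfsg.Agent.Lib.Helper66.OLang
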