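import Mathlib
import Cfsg.Agent.Lib.Helper66.OLangB
import Cfsg.Agent.Lib.Helper49.MinusNoLagr
import Cfsg.Agent.Lib.Helper49.PlusLagr
import Cfsg.Agent.Lib.Helper18.OrthBasic

set_option autoImplicit false
set_option linter.unusedSectionVars false
set_option linter.unusedVariables false
set_option linter.style.haveILetI false

/-!
# The Lang step for orthogonal groups: from frames to matrices; the minus type
-/

namespace Cfsg.Agent.Lib.Helper66.OLang

open Matrix QuadraticMap Module
open Cfsg.Agent.Lib.Helper18.AutPSL (mp mp_apply nrm nrmS hilbert90 hilbert90_one)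
open Cfsg.Agent.Lib.Helper50.Quad
open Cfsg.Agent.Lib.Helper49 (plusQF plusQF_coe minusQF minusQF_coe IsLagr isLagr_of_finrank
  not_isLagr_minusQF minusQF_nondegenerate plusQF_nondegenerate polar_quadFormPlus)

variable {ι : Type} [Fintype ι] [DecidableEq ι] {F : Type*} [Field F]

/-- the matrix with prescribed columns -/
def colM (col : ι → (ι → F)) : Matrix ι ι F := Matrix.of (fun i s => col s i)

theorem colM_mulVec (col : ι → (ι → F)) (v : ι → F) : colM col *ᵥ v = ∑ s, v s • col s := by
  ext i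
  simp [colM, Matrix.mulVec, dotProduct, Finset.sum_apply, mul_comm]

theorem colM_single (col : ι → (ι → F)) (s : ι) : colM col *ᵥ Pi.single s (1 : F) = col s := by
  ext i
  simp [colM]

/-- a family with the Gram data of the standard basis (up to `d`) gives a similarity -/
theorem sim_of_gram (Q : QuadraticForm F (ι → F)) (d : F) (hd0 : d ≠ 0) (col : ι → (ι → F))
    (h1 : ∀ s, (d⁻¹ • Q) (col s) = Q (Pi.single s 1))
    (h2 : ∀ s t, polar (d⁻¹ • Q) (col s) (col t) = polar Q (Pi.single s 1) (Pi.single t 1))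
    (v : ι → F) : Q (colM col *ᵥ v) = d * Q v := by
  have h := map_sum_eq (d⁻¹ • Q) Q col (fun s => Pi.single s (1 : F)) h1 h2 v Finset.univ
  rw [← colM_mulVec, ← eq_sum_single] at h
  rw [← h]
  simp only [_root_.smul_apply, smul_eq_mul]
  field_simp

theorem fixed_of_cols (σ : F ≃+* F) (g : Matrix ι ι F) (col : ι → (ι → F))
    (h : ∀ s, phi σ g (col s) = col s) : g * mp σ (colM col) = colM col := by
  apply matrix_ext_single
  intro s
  rw [mul_mp_mulVec_single, colM_single, h]

theorem polar_sim (Q : QuadraticForm F (ι → F)) (b : Matrix ι ι F) (d : F)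
    (hb : ∀ v, Q (b *ᵥ v) = d * Q v) (u v : ι → F) :
    polar Q (b *ᵥ u) (b *ᵥ v) = d * polar Q u v := by
  unfold polar
  rw [← Matrix.mulVec_add, hb, hb, hb]
  ring

/-- a similarity of a non-degenerate form is invertible -/
theorem det_ne_zero_of_sim (Q : QuadraticForm F (ι → F)) (hQ : (polarBilin Q).Nondegenerate)
    (b : Matrix ι ι F) (d : F) (hd0 : d ≠ 0) (hb : ∀ v, Q (b *ᵥ v) = d * Q v) : b.det ≠ 0 := by
  have hinj : Function.Injective (Matrix.mulVecLin b) := by
    rw [injective_iff_map_eq_zero]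
    intro v hv
    rw [Matrix.mulVecLin_apply] at hv
    apply hQ.1
    intro w
    have := polar_sim Q b d hb v w
    rw [hv, polar_zero_left] at this
    rw [polarBilin_apply_apply]
    rcases mul_eq_zero.1 this.symm with h | h
    · exact absurd h hd0
    · exact h
  have h1 : Function.Injective (fun v : ι → F => b *ᵥ v) := hinj
  have h2 := Matrix.mulVec_injective_iff_isUnit.1 h1
  exact isUnit_iff_ne_zero.1 ((Matrix.isUnit_iff_isUnit_det _).1 h2)

/-! ### the minus type -/

section minus

variable {m : ℕ}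

theorem Qgen_eq_minusQF (a b : F) : Qgen m (T2 1 a b) = minusQF m F a b := by
  ext v
  rw [Qgen_apply, T2_apply, minusQF_coe]
  simp [Cfsg.quadFormMinus]

/-- a totally singular family of half the dimension gives a Lagrangian -/
theorem exists_lagr_of_full {V : Type*} [AddCommGroup V] [Module F V] [FiniteDimensional F V]
    (P : QuadraticForm F V) (hP : (polarBilin P).Nondegenerate) (n : ℕ)
    (hV : finrank F V = 2 * n)
    (x : ((Fin n → V) × (Fin n → V)) × (Empty → V)) (h : IsFull P (Tl P (T0 F)) n ⊤ x) :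
    ∃ L : Submodule F V, IsLagr P L := by
  have hli := linInd_of_full _ _ _ x h (fun c _ k => k.elim)
  have hli2 : LinearIndependent F x.1.1 := by
    have := hli.comp (fun i : Fin n => (Sum.inl (Sum.inl i) : (Fin n ⊕ Fin n) ⊕ Empty))
      (fun i j hij => by simpa using hij)
    exact this
  refine ⟨Submodule.span F (Set.range x.1.1), isLagr_of_finrank hP ?_ ?_⟩
  · intro u hu
    obtain ⟨c, rfl⟩ := (Submodule.mem_span_range_iff_exists_fun F).1 hu
    have := map_sum_eq P (0 : QuadraticForm F V) x.1.1 (fun _ => 0) (fun s => by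
      rw [h.2.1.1 s]; rfl) (fun s t => by rw [h.2.2.1.1 s t]; simp [polar]) c Finset.univ
    rw [this]; rfl
  · rw [finrank_span_eq_card hli2, Fintype.card_fin, hV]

theorem sv_minus (σ : F ≃+* F) (a b : F) (ha : σ a = a) (hb : σ b = b)
    (v : (Fin m ⊕ Fin m) ⊕ Fin 2 → F) : minusQF m F a b (sv σ v) = σ (minusQF m F a b v) := by
  rw [minusQF_coe]
  simp [Cfsg.quadFormMinus, ha, hb]

theorem polar_smul_form {V : Type*} [AddCommGroup V] [Module F V] (P : QuadraticForm F V) (e : F)
    (u v : V) : polar (e • P) u v = e * polar P u v := by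
  rw [show ⇑(e • P) = e • ⇑P from rfl, polar_smul]; rfl

theorem nondeg_smul {V : Type*} [AddCommGroup V] [Module F V] (P : QuadraticForm F V)
    (hP : (polarBilin P).Nondegenerate) (e : F) (he : e ≠ 0) :
    (polarBilin (e • P)).Nondegenerate := by
  constructor
  · intro x hx
    apply hP.1
    intro y
    have := hx y
    rw [polarBilin_apply_apply, polar_smul_form] at this
    rw [polarBilin_apply_apply]
    exact (mul_eq_zero.1 this).resolve_left he
  · intro x hx
    apply hP.2
    intro y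
    have := hx y
    rw [polarBilin_apply_apply, polar_smul_form] at this
    rw [polarBilin_apply_apply]
    exact (mul_eq_zero.1 this).resolve_left he

theorem isLagr_of_smul {V : Type*} [AddCommGroup V] [Module F V] (P : QuadraticForm F V)
    (e : F) (he : e ≠ 0) {L : Submodule F V} (hL : IsLagr (e • P) L) : IsLagr P L := by
  refine ⟨fun u hu => ?_, ?_⟩
  · have := hL.1 u hu
    simp only [_root_.smul_apply, smul_eq_mul] at this
    exact (mul_eq_zero.1 this).resolve_left he
  · conv_rhs => rw [← hL.2]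
    ext x
    simp only [LinearMap.BilinForm.mem_orthogonal_iff, polarBilin_apply_apply, polar_smul_form]
    constructor
    · intro h n hn; rw [h n hn, mul_zero]
    · intro h n hn; exact (mul_eq_zero.1 (h n hn)).resolve_left he

/-- **The Lang step, minus type.** -/
theorem lang_minus [Fintype F] (σ : F ≃+* F) (r : ℕ) (hr0 : 0 < r) (hr : orderOf σ = r)
    (a b : F) (ha : σ a = a) (hb : σ b = b)
    (hab : ∀ z₁ z₂ : F, z₁ ^ 2 + a * z₁ * z₂ + b * z₂ ^ 2 = 0 → z₁ = 0 ∧ z₂ = 0)
    (g : Matrix ((Fin m ⊕ Fin m) ⊕ Fin 2) ((Fin m ⊕ Fin m) ⊕ Fin 2) F) (c : F)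
    (hg : ∀ v, Cfsg.quadFormMinus m F a b (g *ᵥ v) = c * Cfsg.quadFormMinus m F a b v)
    (hN : nrm σ g r = 1) :
    ∃ (B : Matrix ((Fin m ⊕ Fin m) ⊕ Fin 2) ((Fin m ⊕ Fin m) ⊕ Fin 2) F) (d : F), d ≠ 0 ∧
      B.det ≠ 0 ∧
      (∀ v, Cfsg.quadFormMinus m F a b (B *ᵥ v) = d * Cfsg.quadFormMinus m F a b v) ∧
      g * mp σ B = B := by
  have hQ : (polarBilin (minusQF m F a b)).Nondegenerate :=
    minusQF_nondegenerate m F a b (Cfsg.Agent.Lib.Helper49.minus_disc_ne_zero a b hab)
  simp only [← minusQF_coe] at hg ⊢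
  obtain ⟨d, hd0, h⟩ := exists_full σ r hr0 hr g (minusQF m F a b) hQ (sv_minus σ a b ha hb) c hg hN
    m (by simp; ring) a b ha hb (fun z₁ z₂ _ _ h => hab z₁ z₂ h)
  rcases h with ⟨x, hx, -, -⟩ | ⟨x, hx, f1, f2, f3⟩
  · exfalso
    obtain ⟨L, hL⟩ := exists_lagr_of_full (d⁻¹ • minusQF m F a b)
      (nondeg_smul _ hQ _ (inv_ne_zero hd0)) (m + 1) (by simp; ring) x hx
    exact not_isLagr_minusQF a b hab hQ L (isLagr_of_smul _ _ (inv_ne_zero hd0) hL)
  · obtain ⟨g1, g2⟩ := gram_of_full (T2 1 a b) m ⊤ x hx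
    rw [Qgen_eq_minusQF] at g1 g2
    have hsim := sim_of_gram (minusQF m F a b) d hd0 _ g1 g2
    refine ⟨colM (Sum.elim (Sum.elim x.1.1 x.1.2) x.2), d, hd0,
      det_ne_zero_of_sim _ hQ _ d hd0 hsim, hsim, fixed_of_cols σ g _ ?_⟩
    rintro ((i | i) | j)
    · exact f1 i
    · exact f2 i
    · exact f3 j

end minus

end Cfsg.Agent.Lib.Helper66.OLang
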