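import Mathlib

set_option autoImplicit false
set_option linter.unusedSectionVars false
set_option linter.unusedVariables false

namespace Cfsg.Agent.Lib.Helper66.Cyc1

/-- [TRDC] the number of cosets `tD` inside `h C D` is `|C : C ∩ D|`. -/
theorem card_transversal_filter {G : Type*} [Group G] [Finite G] (D C : Subgroup G) (T : Finset G)
    (hT : ∀ g : G, ∃! t, t ∈ T ∧ t⁻¹ * g ∈ D) (h : G)
    [DecidablePred fun t : G => ∃ d ∈ D, h⁻¹ * t * d ∈ C] :
    (T.filter (fun t => ∃ d ∈ D, h⁻¹ * t * d ∈ C)).card * Nat.card (C ⊓ D : Subgroup G)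
      = Nat.card C := by
  classical
  obtain ⟨F, hF⟩ : ∃ F, F = T.filter (fun t => ∃ d ∈ D, h⁻¹ * t * d ∈ C) := ⟨_, rfl⟩
  rw [← hF]
  have hmem : ∀ t, t ∈ F ↔ t ∈ T ∧ ∃ d ∈ D, h⁻¹ * t * d ∈ C := by
    intro t; rw [hF, Finset.mem_filter]
  have hch : ∀ t : F, ∃ d ∈ D, h⁻¹ * (t : G) * d ∈ C := fun t => ((hmem t).1 t.2).2
  choose d hdD hdC using hch
  let f : F × (C ⊓ D : Subgroup G) → C := fun x =>
    ⟨h⁻¹ * (x.1 : G) * d x.1 * (x.2 : G), C.mul_mem (hdC x.1) (Subgroup.mem_inf.1 x.2.2).1⟩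
  have hbij : Function.Bijective f := by
    constructor
    · rintro ⟨t, x⟩ ⟨t', x'⟩ hxy
      have h1 : h⁻¹ * (t : G) * d t * (x : G) = h⁻¹ * (t' : G) * d t' * (x' : G) :=
        congrArg Subtype.val hxy
      have h2 : (t : G) * (d t * (x : G)) = (t' : G) * (d t' * (x' : G)) := by
        have := congrArg (fun z => h * z) h1
        simpa [mul_assoc] using this
      have htt : (t : G) = (t' : G) := by
        apply (hT ((t : G) * (d t * (x : G)))).unique
        · refine ⟨((hmem t).1 t.2).1, ?_⟩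
          rw [inv_mul_cancel_left]
          exact D.mul_mem (hdD t) (Subgroup.mem_inf.1 x.2).2
        · refine ⟨((hmem t').1 t'.2).1, ?_⟩
          rw [h2, inv_mul_cancel_left]
          exact D.mul_mem (hdD t') (Subgroup.mem_inf.1 x'.2).2
      have htt' : t = t' := Subtype.ext htt
      subst htt'
      have : (x : G) = (x' : G) := by
        exact mul_left_cancel h1
      rw [Subtype.ext this]
    · rintro ⟨c, hc⟩
      obtain ⟨t, ⟨htT, htD⟩, -⟩ := hT (h * c)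
      have htF : t ∈ F := by
        rw [hmem]
        refine ⟨htT, t⁻¹ * (h * c), htD, ?_⟩
        have : h⁻¹ * t * (t⁻¹ * (h * c)) = c := by group
        rw [this]; exact hc
      have hx : (h⁻¹ * t * d ⟨t, htF⟩)⁻¹ * c ∈ C ⊓ D := by
        refine Subgroup.mem_inf.2 ⟨C.mul_mem (C.inv_mem (hdC ⟨t, htF⟩)) hc, ?_⟩
        have : (h⁻¹ * t * d ⟨t, htF⟩)⁻¹ * c = (d ⟨t, htF⟩)⁻¹ * (t⁻¹ * (h * c)) := by group
        rw [this]
        exact D.mul_mem (D.inv_mem (hdD _)) htD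
      refine ⟨(⟨t, htF⟩, ⟨_, hx⟩), ?_⟩
      apply Subtype.ext
      change h⁻¹ * t * d ⟨t, htF⟩ * ((h⁻¹ * t * d ⟨t, htF⟩)⁻¹ * c) = c
      rw [mul_inv_cancel_left]
  rw [← Nat.card_congr (Equiv.ofBijective f hbij), Nat.card_prod,
    Nat.card_eq_fintype_card (α := F), Fintype.card_coe]

end Cfsg.Agent.Lib.Helper66.Cyc1
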