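import Mathlib
import Cfsg.Agent.Lib.Helper80.GADef
import Cfsg.Agent.Lib.Helper66.Cyc1TRDC

set_option autoImplicit false
set_option linter.unusedSectionVars false
set_option linter.unusedVariables false

open Cfsg.Agent.Lib.Helper80 Cfsg.Agent.Lib.Helper80.GA

namespace Cfsg.Agent.Lib.Helper66.Cyc1

variable {k G : Type*} [Field k] [Group G] [Fintype G]

/-- a left transversal as a finset -/
theorem exists_transversal (D : Subgroup G) :
    ∃ T : Finset G, ∀ g : G, ∃! t, t ∈ T ∧ t⁻¹ * g ∈ D := by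
  classical
  refine ⟨Finset.univ.image (fun q : G ⧸ D => q.out), fun g => ?_⟩
  refine ⟨(g : G ⧸ D).out, ⟨Finset.mem_image.2 ⟨_, Finset.mem_univ _, rfl⟩, ?_⟩, ?_⟩
  · rw [← QuotientGroup.eq, QuotientGroup.out_eq']
  · rintro t ⟨ht, htg⟩
    obtain ⟨q, -, rfl⟩ := Finset.mem_image.1 ht
    rw [← QuotientGroup.eq, QuotientGroup.out_eq'] at htg
    rw [htg]

theorem cls_fixBy (H : Subgroup G) (g : G) : FixBy H (cls H g : GA k G) := by
  rw [fixBy_iff]
  intro u hu y
  by_cases h : ∃ x ∈ H, y = x * g * x⁻¹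
  · rw [cls_apply_of H g h]
    obtain ⟨x, hx, rfl⟩ := h
    exact cls_apply_of H g ⟨u * x, H.mul_mem hu hx, by group⟩
  · rw [cls_apply_not H g h]
    apply cls_apply_not
    rintro ⟨x, hx, hxy⟩
    apply h
    refine ⟨u⁻¹ * x, H.mul_mem (H.inv_mem hu) hx, ?_⟩
    have : y = u⁻¹ * (u * y * u⁻¹) * u := by group
    rw [this, hxy]; group

/-- (A) the trace of a `D`-class sum -/
theorem trace_cls (D : Subgroup G) (T : Finset G)
    (hT : ∀ g : G, ∃! t, t ∈ T ∧ t⁻¹ * g ∈ D) (g : G) :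
    ∃ m : ℕ, m * Nat.card (Subgroup.centralizer {g} ⊓ D : Subgroup G)
        = Nat.card (Subgroup.centralizer ({g} : Set G)) ∧
      ∑ t ∈ T, of t * (cls D g : GA k G) * of t⁻¹ = (m : k) • cls ⊤ g := by
  classical
  obtain ⟨C, hC⟩ : ∃ C : Subgroup G, C = Subgroup.centralizer {g} := ⟨_, rfl⟩
  rw [← hC]
  have hcount := fun h : G => card_transversal_filter D C T hT h
  refine ⟨_, hcount 1, ?_⟩
  have hpos : 0 < Nat.card (C ⊓ D : Subgroup G) := Nat.card_pos
  ext y
  rw [GA.sum_apply, GA.smul_apply]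
  have hterm : ∀ t : G, (of t * (cls D g : GA k G) * of t⁻¹ : GA k G) y
      = (cls D g : GA k G) (t⁻¹ * y * t) :=
    fun t => cj_apply t _ y
  rw [Finset.sum_congr rfl (fun t _ => hterm t)]
  by_cases hy : ∃ x ∈ (⊤ : Subgroup G), y = x * g * x⁻¹
  · rw [cls_apply_of _ g hy, mul_one]
    obtain ⟨h, -, rfl⟩ := hy
    have hval : ∀ t, (cls D g : GA k G) (t⁻¹ * (h * g * h⁻¹) * t)
        = if ∃ d ∈ D, h⁻¹ * t * d ∈ C then 1 else 0 := by
      intro t
      split_ifs with hd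
      · apply cls_apply_of
        obtain ⟨d, hd, hdC⟩ := hd
        refine ⟨d, hd, ?_⟩
        rw [hC, Subgroup.mem_centralizer_singleton_iff] at hdC
        have h1 : g = (h⁻¹ * t * d) * g * (h⁻¹ * t * d)⁻¹ := by
          rw [hdC, mul_inv_cancel_right]
        calc t⁻¹ * (h * g * h⁻¹) * t
            = t⁻¹ * (h * ((h⁻¹ * t * d) * g * (h⁻¹ * t * d)⁻¹) * h⁻¹) * t := by rw [← h1]
          _ = d * g * d⁻¹ := by group
      · apply cls_apply_not
        rintro ⟨d, hdD, hdd⟩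
        apply hd
        refine ⟨d, hdD, ?_⟩
        rw [hC, Subgroup.mem_centralizer_singleton_iff]
        have h2 : h * g * h⁻¹ = t * (d * g * d⁻¹) * t⁻¹ := by
          rw [← hdd]; group
        have h3 : g = h⁻¹ * (h * g * h⁻¹) * h := by group
        calc h⁻¹ * t * d * g = h⁻¹ * (t * (d * g * d⁻¹) * t⁻¹) * h * (h⁻¹ * t * d) := by group
          _ = g * (h⁻¹ * t * d) := by rw [← h2, ← h3]
    simp only [hval]
    rw [Finset.sum_ite, Finset.sum_const_zero, add_zero, Finset.sum_const, nsmul_eq_mul, mul_one]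
    congr 1
    exact Nat.eq_of_mul_eq_mul_right hpos ((hcount h).trans (hcount 1).symm)
  · rw [cls_apply_not _ g hy, mul_zero]
    refine Finset.sum_eq_zero (fun t _ => ?_)
    apply cls_apply_not
    rintro ⟨d, -, hd⟩
    apply hy
    refine ⟨t * d, Subgroup.mem_top _, ?_⟩
    have : y = t * (t⁻¹ * y * t) * t⁻¹ := by group
    rw [this, hd]; group

theorem cls_top_conj (g x : G) : (cls ⊤ (x⁻¹ * g * x) : GA k G) = cls ⊤ g := by
  ext y
  by_cases hy : ∃ u ∈ (⊤ : Subgroup G), y = u * g * u⁻¹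
  · rw [cls_apply_of _ g hy]
    obtain ⟨u, -, rfl⟩ := hy
    exact cls_apply_of _ _ ⟨u * x, Subgroup.mem_top _, by group⟩
  · rw [cls_apply_not _ g hy]
    apply cls_apply_not
    rintro ⟨u, -, rfl⟩
    exact hy ⟨u * x⁻¹, Subgroup.mem_top _, by group⟩

theorem centralizer_conj (g x : G) :
    Subgroup.centralizer ({x⁻¹ * g * x} : Set G) = cS x⁻¹ (Subgroup.centralizer {g}) := by
  ext y
  rw [mem_cS, Subgroup.mem_centralizer_singleton_iff, Subgroup.mem_centralizer_singleton_iff,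
    inv_inv]
  constructor
  · intro h
    calc x * y * x⁻¹ * g = x * (y * (x⁻¹ * g * x)) * x⁻¹ := by group
      _ = g * (x * y * x⁻¹) := by rw [h]; group
  · intro h
    calc y * (x⁻¹ * g * x) = x⁻¹ * (x * y * x⁻¹ * g) * x := by group
      _ = x⁻¹ * g * x * y := by rw [h]; group

variable {p : ℕ} [Fact p.Prime] [CharP k p]

/-- (B) a class sum of defect `≤ D` is a trace from `D` -/
theorem cls_is_trace {b : GA k G} {D : Subgroup G} (hzd : ZD p ⊤ D b) (T : Finset G)
    (hT : ∀ g : G, ∃! t, t ∈ T ∧ t⁻¹ * g ∈ D) (g : G) (hg : b g ≠ 0) :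
    ∃ c : GA k G, FixBy D c ∧ ∑ t ∈ T, of t * c * of t⁻¹ = cls ⊤ g := by
  classical
  obtain ⟨P⟩ : Nonempty (Sylow p (Subgroup.centralizer ({g} : Set G))) := inferInstance
  obtain ⟨S, hS⟩ : ∃ S : Subgroup G,
      S = (P : Subgroup (Subgroup.centralizer ({g} : Set G))).map (Subgroup.subtype _) := ⟨_, rfl⟩
  have hSp : IsPGroup p S := hS ▸ P.2.map _
  have hSC : S ≤ Subgroup.centralizer ({g} : Set G) := by
    rw [hS]; rintro _ ⟨x, _, rfl⟩; exact x.2
  have hScard : Nat.card S = Nat.card (P : Subgroup (Subgroup.centralizer ({g} : Set G))) := by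
    rw [hS]; exact Subgroup.card_map_of_injective (Subgroup.subtype_injective _)
  obtain ⟨x, -, hx⟩ := hzd g hg S le_top hSp (fun s hs => by
    have := hSC hs
    rw [Subgroup.mem_centralizer_singleton_iff] at this
    exact this)
  obtain ⟨m, hm, htr⟩ := trace_cls (k := k) D T hT (x⁻¹ * g * x)
  have hle : cS x⁻¹ S ≤ Subgroup.centralizer {x⁻¹ * g * x} ⊓ D := by
    refine le_inf ?_ ?_
    · rw [centralizer_conj]; exact cS_mono _ hSC
    · have := cS_mono x⁻¹ hx
      rwa [cS_cS, inv_mul_cancel, cS_one] at this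
  have hdvd : Nat.card S ∣ Nat.card (Subgroup.centralizer {x⁻¹ * g * x} ⊓ D : Subgroup G) := by
    rw [← card_cS x⁻¹ S]; exact Subgroup.card_dvd_of_le hle
  have hcc : Nat.card (Subgroup.centralizer ({x⁻¹ * g * x} : Set G))
      = Nat.card (Subgroup.centralizer ({g} : Set G)) := by
    rw [centralizer_conj, card_cS]
  have hpm : ¬ p ∣ m := by
    intro hpm
    apply P.not_dvd_index
    obtain ⟨j, hj⟩ := hdvd
    have h1 : Nat.card (P : Subgroup (Subgroup.centralizer ({g} : Set G)))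
        * (P : Subgroup (Subgroup.centralizer ({g} : Set G))).index
        = Nat.card (Subgroup.centralizer ({g} : Set G)) := Subgroup.card_mul_index _
    rw [hj, hcc, ← h1, ← hScard] at hm
    have hpos : 0 < Nat.card S := Nat.card_pos
    have h2 : m * j = (P : Subgroup (Subgroup.centralizer ({g} : Set G))).index := by
      apply Nat.eq_of_mul_eq_mul_left hpos
      rw [← hm]; ring
    rw [← h2]
    exact Dvd.dvd.mul_right hpm j
  have hmk : (m : k) ≠ 0 := by
    rwa [Ne, CharP.cast_eq_zero_iff k p]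
  refine ⟨(m : k)⁻¹ • cls D (x⁻¹ * g * x), (cls_fixBy D _).smul _, ?_⟩
  have : ∀ t : G, of t * ((m : k)⁻¹ • (cls D (x⁻¹ * g * x) : GA k G)) * of t⁻¹
      = (m : k)⁻¹ • (of t * (cls D (x⁻¹ * g * x) : GA k G) * of t⁻¹) := by
    intro t
    rw [mul_smul_comm, smul_mul_assoc]
  simp only [this]
  rw [← Finset.smul_sum, htr, smul_smul, inv_mul_cancel₀ hmk, one_smul, cls_top_conj]

/-- [TRD] a central element supported on classes of defect `≤ D` is a relative trace from `D`. -/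
theorem exists_trace {k G : Type*} [Field k] [Group G] [Fintype G] {p : ℕ} [Fact p.Prime]
    [CharP k p] {b : GA k G} {D : Subgroup G} (hb : FixBy ⊤ b) (hzd : ZD p ⊤ D b) :
    ∃ (T : Finset G) (c : GA k G), (∀ g : G, ∃! t, t ∈ T ∧ t⁻¹ * g ∈ D) ∧ FixBy D c ∧
      ∑ t ∈ T, of t * c * of t⁻¹ = b := by
  classical
  obtain ⟨T, hT⟩ := exists_transversal D
  have hbZ : InZ ⊤ b := ⟨fun g hg => absurd (Subgroup.mem_top g) hg, hb⟩
  have key := inZ_induction (H := (⊤ : Subgroup G))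
    (fun a : GA k G => ∃ c : GA k G, FixBy D c ∧ ∑ t ∈ T, of t * c * of t⁻¹ = a)
    ⟨0, FixBy.zero, by simp⟩
    (fun a a' ⟨c, hc, hca⟩ ⟨c', hc', hca'⟩ => ⟨c + c', hc.add hc', by
      rw [← hca, ← hca', ← Finset.sum_add_distrib]
      exact Finset.sum_congr rfl (fun t _ => by rw [mul_add, add_mul])⟩)
    _ b hbZ
    (fun g hg => by
      obtain ⟨c, hc, hcg⟩ := cls_is_trace hzd T hT g hg
      refine ⟨b g • c, hc.smul _, ?_⟩
      rw [← hcg, Finset.smul_sum]
      exact Finset.sum_congr rfl (fun t _ => by rw [mul_smul_comm, smul_mul_assoc])) rfl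
  obtain ⟨c, hc, hcb⟩ := key
  exact ⟨T, c, hT, hc, hcb⟩

end Cfsg.Agent.Lib.Helper66.Cyc1
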