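import Mathlib
import Cfsg.Prelude.Def_LieTypeDatum

set_option autoImplicit false
set_option linter.unusedSectionVars false
set_option linter.unusedVariables false

/-!
# Coset conjugacy: the abstract group lemma, and transport of class preservation along
semilinear bijections
-/

namespace Cfsg.Agent.Lib.Helper66.OGrp

open Matrix Module

/-- the abstract reduction -/
theorem coset_conj {A Γ : Type*} [Group A] [Group Γ] (c : Γ →* A) (hc : Function.Surjective c)
    (D : Subgroup Γ) (hD : D.Normal) (Φ : Γ) (r : ℕ)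
    (core : ∀ d ∈ D, (c (d * Φ)) ^ r = 1 → ∃ h ∈ D, c (d * Φ) = c (h * Φ * h⁻¹))
    (x δ α : A) (hα : α * x * α⁻¹ = c Φ) (hδ : δ ∈ D.map c) (hord : orderOf (δ * x) = r) :
    Cfsg.IsConjUnder (D.map c) x (δ * x) := by
  obtain ⟨a, rfl⟩ := hc α
  obtain ⟨d, hd, rfl⟩ := hδ
  have h1 : c (a * d * a⁻¹ * Φ) = c a * (c d * x) * (c a)⁻¹ := by
    rw [map_mul, ← hα, map_mul, map_mul, map_inv]
    group
  have h2 : (c (a * d * a⁻¹ * Φ)) ^ r = 1 := by
    rw [h1, conj_pow, ← hord, pow_orderOf_eq_one]
    group
  obtain ⟨h, hh, h3⟩ := core _ (hD.conj_mem d hd a) h2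
  refine ⟨c (a⁻¹ * h * a), ⟨_, ?_, rfl⟩, ?_⟩
  · have := hD.conj_mem h hh a⁻¹
    rwa [inv_inv] at this
  · rw [h1, map_mul, map_mul, ← hα, map_inv] at h3
    have h4 : c d * x = (c a)⁻¹ * (c a * (c d * x) * (c a)⁻¹) * c a := by group
    rw [h4, h3]
    simp only [map_mul, map_inv]
    group

theorem orderOf_of_isConjUnder {A : Type*} [Group A] (H : Subgroup A) (x y : A)
    (h : Cfsg.IsConjUnder H x y) : orderOf y = orderOf x := by
  obtain ⟨g, -, rfl⟩ := h
  have := orderOf_injective (MulAut.conj g).toMonoidHom (MulAut.conj g).injective x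
  simpa [MulAut.conj_apply] using this

section transport

variable {ι : Type} [Fintype ι] [DecidableEq ι] {K K' : Type*} [Field K] [Field K']

/-- the preimage of a subspace under a semilinear bijection -/
def pull (e : K ≃+* K') (T : (ι → K) ≃+ (ι → K')) (hT : ∀ (a : K) v, T (a • v) = e a • T v)
    (U : Submodule K' (ι → K')) : Submodule K (ι → K) where
  carrier := {v | T v ∈ U}
  add_mem' {a b} ha hb := by
    show T (a + b) ∈ U
    rw [map_add]; exact U.add_mem ha hb
  zero_mem' := by
    show T 0 ∈ U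
    rw [map_zero]; exact U.zero_mem
  smul_mem' a v hv := by
    show T (a • v) ∈ U
    rw [hT]; exact U.smul_mem _ hv

theorem mem_pull (e : K ≃+* K') (T : (ι → K) ≃+ (ι → K')) (hT : ∀ (a : K) v, T (a • v) = e a • T v)
    (U : Submodule K' (ι → K')) (v : ι → K) : v ∈ pull e T hT U ↔ T v ∈ U := Iff.rfl

end transport

section transport2

universe u

variable {ι : Type} [Fintype ι] [DecidableEq ι] {K K' : Type u} [Field K] [Field K']

theorem finrank_pull (e : K ≃+* K') (T : (ι → K) ≃+ (ι → K'))
    (hT : ∀ (a : K) v, T (a • v) = e a • T v) (U : Submodule K' (ι → K')) :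
    finrank K ↥(pull e T hT U) = finrank K' ↥U := by
  let j : ↥(pull e T hT U) ≃+ ↥U :=
    { toFun := fun v => ⟨T v.1, v.2⟩
      invFun := fun w => ⟨T.symm w.1, by
        rw [mem_pull, AddEquiv.apply_symm_apply]; exact w.2⟩
      left_inv := fun v => Subtype.ext (by simp)
      right_inv := fun w => Subtype.ext (by simp)
      map_add' := fun a b => Subtype.ext (by simp) }
  have := rank_eq_of_equiv_equiv (R := K) (R' := K') e j e.bijective (fun r m => by
    apply Subtype.ext
    exact hT r m.1)
  unfold Module.finrank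
  rw [this]

theorem symm_semilinear (e : K ≃+* K') (T : (ι → K) ≃+ (ι → K'))
    (hT : ∀ (a : K) v, T (a • v) = e a • T v) (a : K') (v : ι → K') :
    T.symm (a • v) = e.symm a • T.symm v := by
  apply T.injective
  rw [hT]; simp

/-- **Transport of class preservation** along a semilinear bijection respecting singularity. -/
theorem preserves_transport (e : K ≃+* K') (Q : (ι → K) → K) (Q' : (ι → K') → K')
    (T : (ι → K) ≃+ (ι → K')) (hT : ∀ (a : K) v, T (a • v) = e a • T v)
    (hQ : ∀ v, Q' (T v) = 0 ↔ Q v = 0)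
    (g : Matrix ι ι K) (g' : Matrix ι ι K') (hgg : ∀ v, g' *ᵥ T v = T (g *ᵥ v))
    (h : Cfsg.PreservesSingularClasses Q g) : Cfsg.PreservesSingularClasses Q' g' := by
  intro U' hU'
  have hU : Cfsg.IsMaxTotallySingular Q (pull e T hT U') := by
    refine ⟨fun v hv => (hQ v).1 (hU'.1 _ hv), fun W hW hle => ?_⟩
    have h1 := hU'.2 (pull e.symm T.symm (symm_semilinear e T hT) W) (fun v hv => by
      have := hW _ hv
      rw [← hQ] at this
      simpa using this) (fun v hv => by
      rw [mem_pull]
      apply hle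
      rw [mem_pull]
      simpa using hv)
    ext v
    rw [mem_pull, ← h1, mem_pull]
    simp
  have h2 := h _ hU
  unfold Cfsg.SameParityClass at h2 ⊢
  have h3 : pull e T hT U' ⊓ Cfsg.imageSubmodule g (pull e T hT U') =
      pull e T hT (U' ⊓ Cfsg.imageSubmodule g' U') := by
    ext v
    simp only [Submodule.mem_inf, mem_pull, Cfsg.imageSubmodule, Submodule.mem_map,
      Matrix.toLin'_apply]
    constructor
    · rintro ⟨h4, u, hu, rfl⟩
      exact ⟨h4, T u, hu, hgg u⟩
    · rintro ⟨h4, u', hu', h5⟩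
      refine ⟨h4, T.symm u', by simpa using hu', ?_⟩
      apply T.injective
      rw [← hgg]
      simpa using h5
  rw [h3, finrank_pull, finrank_pull] at h2
  exact h2

end transport2

end Cfsg.Agent.Lib.Helper66.OGrp
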