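import Mathlib
import Cfsg.Agent.Lib.Helper66.OGrpA
import Cfsg.Agent.Lib.Helper49.GamO6
import Cfsg.Agent.Lib.Helper6.OA.Cls
import Cfsg.Agent.Lib.Helper18.AutPSL.H90
import Cfsg.Agent.Lib.Helper18.OrthBasic

set_option autoImplicit false
set_option linter.unusedSectionVars false
set_option linter.unusedVariables false

/-!
# The class-preserving similarities as a normal subgroup of `ΓO(Q)`
-/

namespace Cfsg.Agent.Lib.Helper66.OGrp

open Matrix QuadraticMap Module
open scoped MatrixGroups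
open Cfsg.Agent.Lib.Helper49 (GamL GamO semiFun semiFun_mul semiFun_one semiFun_inv_semiFun
  semiFun_semiFun_inv semiFun_add semiFun_smul semiFun_inl glMap coe_glMap cGam cGam_induced
  eq_cGam_of_induced mem_GamO IsLagr)
open Cfsg.Agent.Lib.Helper6.OA (GO preserves_iff even_par_mul isSim_lin lin_mul lin_coe
  preserves_of_map_eq)
open Cfsg.Agent.Lib.Helper18.AutPSL (mp mp_apply mp_eq_map nrm nrm_zero nrm_succ)

variable {ι : Type} [Fintype ι] [DecidableEq ι] {F : Type*} [Field F]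

/-- `semiFun` as an additive equivalence -/
def semiEquiv (x : GamL ι F) : (ι → F) ≃+ (ι → F) where
  toFun := semiFun x
  invFun := semiFun x⁻¹
  left_inv := semiFun_inv_semiFun x
  right_inv := semiFun_semiFun_inv x
  map_add' := semiFun_add x

theorem semiEquiv_apply (x : GamL ι F) (v : ι → F) : semiEquiv x v = semiFun x v := rfl

theorem semiFun_of_right (x : GamL ι F) (h : x.right = 1) (v : ι → F) :
    semiFun x v = (x.left : Matrix ι ι F) *ᵥ v := by
  unfold semiFun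
  rw [h]
  rfl

theorem pow_right (x : GamL ι F) (k : ℕ) : (x ^ k).right = x.right ^ k :=
  map_pow (SemidirectProduct.rightHom : GamL ι F →* (F ≃+* F)) x k

theorem pow_left (x : GamL ι F) (k : ℕ) :
    (((x ^ k).left : GL ι F) : Matrix ι ι F) = nrm x.right (x.left : Matrix ι ι F) k := by
  induction k with
  | zero => simp [nrm_zero]
  | succ k ih =>
    rw [pow_succ', SemidirectProduct.mul_left, Units.val_mul, coe_glMap, ih, nrm_succ, mp_eq_map]

section generic

variable (Q : (ι → F) → F)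

theorem left_mem_GO (γ : GamL ι F) (hγ : γ ∈ GamO Q) (h : γ.right = 1) : γ.left ∈ GO Q := by
  obtain ⟨c, hc⟩ := (mem_GamO Q).1 hγ
  refine ⟨c, fun v => ?_⟩
  have := hc v
  rw [semiFun_of_right γ h, h] at this
  exact this

theorem inl_mem_GamO (g : GL ι F) (hg : g ∈ GO Q) : (SemidirectProduct.inl g : GamL ι F) ∈ GamO Q := by
  obtain ⟨c, hc⟩ := hg
  refine (mem_GamO Q).2 ⟨c, fun v => ?_⟩
  rw [semiFun_inl, hc]
  rfl

/-- class preservation is invariant under conjugation by semisimilarities -/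
theorem pres_conj (γ : GamL ι F) (hγ : γ ∈ GamO Q) (d : GamL ι F) (hd : d.right = 1)
    (hP : Cfsg.PreservesSingularClasses Q (d.left : Matrix ι ι F)) :
    Cfsg.PreservesSingularClasses Q ((γ * d * γ⁻¹).left : Matrix ι ι F) := by
  obtain ⟨c, hc⟩ := (mem_GamO Q).1 hγ
  have hr : (γ * d * γ⁻¹).right = 1 := by
    rw [SemidirectProduct.mul_right, SemidirectProduct.mul_right, hd,
      SemidirectProduct.inv_right]
    group
  refine preserves_transport γ.right Q Q (semiEquiv γ) (semiFun_smul γ) (fun v => ?_) _ _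
    (fun v => ?_) hP
  · rw [semiEquiv_apply, hc]
    constructor
    · intro h
      rcases mul_eq_zero.1 h with h | h
      · exact absurd h c.ne_zero
      · simpa using h
    · intro h
      rw [h]; simp
  · rw [semiEquiv_apply, semiEquiv_apply, ← semiFun_of_right _ hr, semiFun_mul, semiFun_mul,
      semiFun_inv_semiFun, semiFun_of_right d hd]

end generic

section form

variable (Q : QuadraticForm F (ι → F)) (hQ : (polarBilin Q).Nondegenerate)
  {L : Submodule F (ι → F)} (hL : IsLagr Q L)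

include hQ hL in
theorem pres_mul (g h : GL ι F) (hg : g ∈ GO ⇑Q) (hh : h ∈ GO ⇑Q) :
    Cfsg.PreservesSingularClasses ⇑Q ((g * h : GL ι F) : Matrix ι ι F) ↔
      (Cfsg.PreservesSingularClasses ⇑Q (g : Matrix ι ι F) ↔
        Cfsg.PreservesSingularClasses ⇑Q (h : Matrix ι ι F)) := by
  have e1 := preserves_iff hQ hL (⟨g, hg⟩ * ⟨h, hh⟩ : ↥(GO ⇑Q))
  have e2 := preserves_iff hQ hL (⟨g, hg⟩ : ↥(GO ⇑Q))
  have e3 := preserves_iff hQ hL (⟨h, hh⟩ : ↥(GO ⇑Q))
  have h1 := even_par_mul hQ hL (isSim_lin Q ⟨g, hg⟩) (isSim_lin Q ⟨h, hh⟩)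
  rw [← lin_mul, lin_coe, lin_coe, lin_coe] at h1
  have e1' : Cfsg.PreservesSingularClasses ⇑Q ((g * h : GL ι F) : Matrix ι ι F) ↔ _ := e1
  rw [e1']
  have e2' : Cfsg.PreservesSingularClasses ⇑Q (g : Matrix ι ι F) ↔ _ := e2
  have e3' : Cfsg.PreservesSingularClasses ⇑Q (h : Matrix ι ι F) ↔ _ := e3
  rw [e2', e3']
  simp only [Nat.even_iff] at h1 ⊢
  omega

include hQ hL in
theorem pres_one : Cfsg.PreservesSingularClasses ⇑Q ((1 : GL ι F) : Matrix ι ι F) := by
  have := preserves_of_map_eq hQ hL (1 : ↥(GO ⇑Q)) (by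
    show L.map (Matrix.toLin' (1 : Matrix ι ι F)) = L
    rw [Matrix.toLin'_one, Submodule.map_id])
  exact this

include hQ hL in
theorem pres_inv (g : GL ι F) (hg : g ∈ GO ⇑Q) :
    Cfsg.PreservesSingularClasses ⇑Q ((g⁻¹ : GL ι F) : Matrix ι ι F) ↔
      Cfsg.PreservesSingularClasses ⇑Q (g : Matrix ι ι F) := by
  have h1 := pres_mul Q hQ hL g g⁻¹ hg (inv_mem hg)
  rw [mul_inv_cancel] at h1
  exact (h1.1 (pres_one Q hQ hL)).symm

include hQ hL in
theorem pres_scalar (g : GL ι F) (c : F) (hc : c ≠ 0) (hg : (g : Matrix ι ι F) = c • 1) :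
    Cfsg.PreservesSingularClasses ⇑Q (g : Matrix ι ι F) := by
  have hmem : g ∈ GO ⇑Q := by
    refine ⟨Units.mk0 (c * c) (mul_ne_zero hc hc), fun v => ?_⟩
    rw [hg, Matrix.smul_mulVec, Matrix.one_mulVec, QuadraticMap.map_smul]
    rfl
  have := preserves_of_map_eq hQ hL (⟨g, hmem⟩ : ↥(GO ⇑Q)) (by
    show L.map (Matrix.toLin' (g : Matrix ι ι F)) = L
    rw [hg]
    ext v
    simp only [Submodule.mem_map, Matrix.toLin'_apply, Matrix.smul_mulVec, Matrix.one_mulVec]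
    constructor
    · rintro ⟨u, hu, rfl⟩
      exact L.smul_mem _ hu
    · intro hv
      exact ⟨c⁻¹ • v, L.smul_mem _ hv, by rw [smul_smul, mul_inv_cancel₀ hc, one_smul]⟩)
  exact this

include hQ hL in
theorem not_pres_refl (g : GL ι F) (hg : g ∈ GO ⇑Q) (v : ι → F) (hv : Q v ≠ 0)
    (hgv : (g : Matrix ι ι F) = Cfsg.reflectionMatrix ⇑Q v) :
    ¬ Cfsg.PreservesSingularClasses ⇑Q (g : Matrix ι ι F) := by
  have e2 := preserves_iff hQ hL (⟨g, hg⟩ : ↥(GO ⇑Q))
  have e2' : Cfsg.PreservesSingularClasses ⇑Q (g : Matrix ι ι F) ↔ _ := e2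
  rw [e2']
  have h1 := hL.finrank_inf_map_refl hQ hL v hv
  have h2 : ((Cfsg.Agent.Lib.Helper49.refl Q v).1 : (ι → F) →ₗ[F] (ι → F)) =
      Matrix.toLin' (g : Matrix ι ι F) := by
    apply LinearMap.ext
    intro w
    rw [hgv, Matrix.toLin'_apply, Cfsg.Agent.Lib.Helper18.reflectionMatrix_mulVec]
    simp [Cfsg.Agent.Lib.Helper49.reflLin_apply]
  rw [h2, inf_idem] at h1
  simp only [Nat.even_iff]
  omega

/-- the class-preserving similarities inside `ΓO(Q)` -/
def DD : Subgroup ↥(GamO ⇑Q) where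
  carrier := {γ | γ.1.right = 1 ∧ Cfsg.PreservesSingularClasses ⇑Q (γ.1.left : Matrix ι ι F)}
  mul_mem' := by
    rintro a b ⟨ha, hPa⟩ ⟨hb, hPb⟩
    refine ⟨?_, ?_⟩
    · show (a.1 * b.1).right = 1
      rw [SemidirectProduct.mul_right, ha, hb, one_mul]
    · show Cfsg.PreservesSingularClasses ⇑Q ((a.1 * b.1).left : Matrix ι ι F)
      rw [SemidirectProduct.mul_left, ha, map_one, MulAut.one_apply,
        pres_mul Q hQ hL _ _ (left_mem_GO _ _ a.2 ha) (left_mem_GO _ _ b.2 hb)]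
      exact ⟨fun _ => hPb, fun _ => hPa⟩
  one_mem' := ⟨rfl, pres_one Q hQ hL⟩
  inv_mem' := by
    rintro a ⟨ha, hPa⟩
    refine ⟨?_, ?_⟩
    · show (a.1⁻¹).right = 1
      rw [SemidirectProduct.inv_right, ha, inv_one]
    · show Cfsg.PreservesSingularClasses ⇑Q ((a.1⁻¹).left : Matrix ι ι F)
      rw [SemidirectProduct.inv_left, ha, inv_one, map_one, MulAut.one_apply,
        pres_inv Q hQ hL _ (left_mem_GO _ _ a.2 ha)]
      exact hPa

theorem mem_DD (γ : ↥(GamO ⇑Q)) : γ ∈ DD Q hQ hL ↔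
    γ.1.right = 1 ∧ Cfsg.PreservesSingularClasses ⇑Q (γ.1.left : Matrix ι ι F) := Iff.rfl

theorem DD_normal : (DD Q hQ hL).Normal := by
  constructor
  rintro d ⟨hd, hP⟩ γ
  refine ⟨?_, pres_conj ⇑Q γ.1 γ.2 d.1 hd hP⟩
  show (γ.1 * d.1 * γ.1⁻¹).right = 1
  rw [SemidirectProduct.mul_right, SemidirectProduct.mul_right, hd, SemidirectProduct.inv_right]
  group

/-- `Inndiag` is the image of `DD` -/
theorem inndiag_eq : Cfsg.autSubgroupOf (fun β : Cfsg.POmega F ⇑Q ≃* Cfsg.POmega F ⇑Q =>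
      ∃ g : GL ι F, g ∈ Cfsg.Geo.quadSimilarityGroup (F := F) ⇑Q ∧
        Cfsg.PreservesSingularClasses ⇑Q (g : Matrix ι ι F) ∧
        Cfsg.IsInducedBySemilinearPOmega ⇑Q g (RingEquiv.refl F) β) =
    (DD Q hQ hL).map (cGam ⇑Q) := by
  unfold Cfsg.autSubgroupOf
  apply le_antisymm
  · rw [Subgroup.closure_le]
    rintro β ⟨g, hg, hP, hβ⟩
    refine ⟨⟨SemidirectProduct.inl g, inl_mem_GamO _ g hg⟩, ⟨rfl, hP⟩, ?_⟩
    exact (eq_cGam_of_induced ⇑Q ⟨SemidirectProduct.inl g, inl_mem_GamO _ g hg⟩ β hβ).symm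
  · rintro _ ⟨γ, ⟨hγ, hP⟩, rfl⟩
    apply Subgroup.subset_closure
    refine ⟨γ.1.left, left_mem_GO _ _ γ.2 hγ, hP, ?_⟩
    have := cGam_induced ⇑Q γ
    rw [hγ] at this
    exact this

end form

end Cfsg.Agent.Lib.Helper66.OGrp
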