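import Mathlib
import Cfsg.Agent.Lib.Helper66.OGrpB

set_option autoImplicit false
set_option linter.unusedSectionVars false
set_option linter.unusedVariables false

/-!
# Forms with coefficients in the prime field: the parity on `ΓO(Q)` and the abstract core
-/

namespace Cfsg.Agent.Lib.Helper66.OGrp

open Matrix QuadraticMap Module
open scoped MatrixGroups
open Cfsg.Agent.Lib.Helper49 (GamL GamO semiFun semiFun_mul semiFun_one semiFun_inv_semiFun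
  semiFun_semiFun_inv semiFun_add semiFun_smul semiFun_inl glMap coe_glMap cGam cGam_induced
  eq_cGam_of_induced mem_GamO IsLagr)
open Cfsg.Agent.Lib.Helper6.OA (GO)

variable {ι : Type} [Fintype ι] [DecidableEq ι] {F : Type*} [Field F]

variable (Q : QuadraticForm F (ι → F)) (hQ : (polarBilin Q).Nondegenerate)
  {L : Submodule F (ι → F)} (hL : IsLagr Q L)
  (hσQ : ∀ (σ : F ≃+* F) (v : ι → F), Q (fun i => σ (v i)) = σ (Q v))

include hσQ in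
theorem inr_mem (σ : F ≃+* F) : (SemidirectProduct.inr σ : GamL ι F) ∈ GamO ⇑Q := by
  refine (mem_GamO _).2 ⟨1, fun v => ?_⟩
  unfold semiFun
  simp only [SemidirectProduct.left_inr, SemidirectProduct.right_inr, Units.val_one,
    Matrix.one_mulVec, one_mul]
  exact hσQ σ v

include hσQ in
theorem left_mem (γ : GamL ι F) (hγ : γ ∈ GamO ⇑Q) : γ.left ∈ GO ⇑Q := by
  have h1 : (SemidirectProduct.inl γ.left : GamL ι F) = γ * (SemidirectProduct.inr γ.right)⁻¹ := by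
    rw [eq_mul_inv_iff_mul_eq, SemidirectProduct.inl_left_mul_inr_right]
  have h2 : (SemidirectProduct.inl γ.left : GamL ι F) ∈ GamO ⇑Q := by
    rw [h1]
    exact mul_mem hγ (inv_mem (inr_mem Q hσQ _))
  exact left_mem_GO _ (SemidirectProduct.inl γ.left) h2 rfl

include hσQ in
theorem pres_sigma_aux (σ : F ≃+* F) (g : GL ι F)
    (h : Cfsg.PreservesSingularClasses ⇑Q (g : Matrix ι ι F)) :
    Cfsg.PreservesSingularClasses ⇑Q ((glMap σ g : GL ι F) : Matrix ι ι F) := by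
  have := pres_conj ⇑Q (SemidirectProduct.inr σ) (inr_mem Q hσQ σ) (SemidirectProduct.inl g) rfl h
  rw [← map_inv, ← SemidirectProduct.inl_aut, SemidirectProduct.left_inl] at this
  exact this

include hσQ in
theorem pres_sigma (σ : F ≃+* F) (g : GL ι F) :
    Cfsg.PreservesSingularClasses ⇑Q ((glMap σ g : GL ι F) : Matrix ι ι F) ↔
      Cfsg.PreservesSingularClasses ⇑Q (g : Matrix ι ι F) := by
  refine ⟨fun h => ?_, pres_sigma_aux Q hσQ σ g⟩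
  have := pres_sigma_aux Q hσQ σ⁻¹ _ h
  rwa [← MulAut.mul_apply, ← map_mul, inv_mul_cancel, map_one, MulAut.one_apply] at this

include hσQ in
theorem glMap_mem (σ : F ≃+* F) (g : GL ι F) (hg : g ∈ GO ⇑Q) : glMap σ g ∈ GO ⇑Q := by
  have h1 : (SemidirectProduct.inl (glMap σ g) : GamL ι F) ∈ GamO ⇑Q := by
    rw [SemidirectProduct.inl_aut]
    exact mul_mem (mul_mem (inr_mem Q hσQ σ) (inl_mem_GamO _ g hg)) (inr_mem Q hσQ _)
  exact left_mem_GO _ _ h1 rfl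

/-- the parity predicate on `ΓO` -/
def PL (γ : ↥(GamO ⇑Q)) : Prop := Cfsg.PreservesSingularClasses ⇑Q (γ.1.left : Matrix ι ι F)

include hQ hL hσQ in
theorem PL_mul (a b : ↥(GamO ⇑Q)) : PL Q (a * b) ↔ (PL Q a ↔ PL Q b) := by
  unfold PL
  show Cfsg.PreservesSingularClasses ⇑Q ((a.1 * b.1).left : Matrix ι ι F) ↔ _
  rw [SemidirectProduct.mul_left, pres_mul Q hQ hL _ _ (left_mem Q hσQ _ a.2)
    (glMap_mem Q hσQ _ _ (left_mem Q hσQ _ b.2)), pres_sigma Q hσQ]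

include hQ hL in
theorem PL_one : PL Q 1 := pres_one Q hQ hL

include hQ hL hσQ in
theorem PL_inv (a : ↥(GamO ⇑Q)) : PL Q a⁻¹ ↔ PL Q a := by
  have h1 := PL_mul Q hQ hL hσQ a a⁻¹
  rw [mul_inv_cancel] at h1
  exact (h1.1 (PL_one Q hQ hL)).symm

include hQ hL hσQ in
theorem PL_conj (b a : ↥(GamO ⇑Q)) : PL Q (b * a * b⁻¹) ↔ PL Q a := by
  rw [PL_mul Q hQ hL hσQ, PL_mul Q hQ hL hσQ, PL_inv Q hQ hL hσQ]
  tauto

include hσQ in
/-- **The abstract core.** `NF` is a normal form statement: every `γ` in the coset of `σ` whose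
image has `r`-th power one is, modulo the kernel, conjugate under the linear part to one of two
representatives distinguished by their parity. -/
theorem core_of_nf (σ : F ≃+* F) (r : ℕ) (Ψ₀ Ψ₁ : ↥(GamO ⇑Q))
    (NF : ∀ γ : ↥(GamO ⇑Q), γ.1.right = σ → (cGam ⇑Q γ) ^ r = 1 →
      (PL Q γ ∧ ∃ b : ↥(GamO ⇑Q), b.1.right = 1 ∧ cGam ⇑Q γ = cGam ⇑Q (b * Ψ₀ * b⁻¹)) ∨
      (¬ PL Q γ ∧ ∃ b : ↥(GamO ⇑Q), b.1.right = 1 ∧ cGam ⇑Q γ = cGam ⇑Q (b * Ψ₁ * b⁻¹)))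
    (Φ t : ↥(GamO ⇑Q)) (hΦ : Φ.1.right = σ) (hΦr : (cGam ⇑Q Φ) ^ r = 1)
    (ht : t.1.right = 1) (htP : ¬ PL Q t) (htΦ : t * Φ = Φ * t) :
    ∀ d ∈ DD Q hQ hL, (cGam ⇑Q (d * Φ)) ^ r = 1 →
      ∃ h ∈ DD Q hQ hL, cGam ⇑Q (d * Φ) = cGam ⇑Q (h * Φ * h⁻¹) := by
  rintro d ⟨hd, hdP⟩ hdr
  have hdΦ : (d * Φ).1.right = σ := by
    show (d.1 * Φ.1).right = σ
    rw [SemidirectProduct.mul_right, hd, hΦ, one_mul]
  have hpar : PL Q (d * Φ) ↔ PL Q Φ := by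
    rw [PL_mul Q hQ hL hσQ]
    have : PL Q d := hdP
    tauto
  -- a conjugating element in the linear part
  have key : ∃ h₀ : ↥(GamO ⇑Q), h₀.1.right = 1 ∧ cGam ⇑Q (d * Φ) = cGam ⇑Q (h₀ * Φ * h₀⁻¹) := by
    have aux : ∀ (Ψ b b₀ : ↥(GamO ⇑Q)), b.1.right = 1 → b₀.1.right = 1 →
        cGam ⇑Q (d * Φ) = cGam ⇑Q (b * Ψ * b⁻¹) → cGam ⇑Q Φ = cGam ⇑Q (b₀ * Ψ * b₀⁻¹) →
        ∃ h₀ : ↥(GamO ⇑Q), h₀.1.right = 1 ∧ cGam ⇑Q (d * Φ) = cGam ⇑Q (h₀ * Φ * h₀⁻¹) := by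
      intro Ψ b b₀ hb hb₀ e1 e2
      refine ⟨b * b₀⁻¹, ?_, ?_⟩
      · show (b.1 * b₀.1⁻¹).right = 1
        rw [SemidirectProduct.mul_right, SemidirectProduct.inv_right, hb, hb₀]
        simp
      · rw [e1]
        simp only [map_mul, map_inv] at e2 ⊢
        rw [e2]
        group
    rcases NF _ hdΦ hdr with ⟨p1, b, hb, e1⟩ | ⟨p1, b, hb, e1⟩ <;>
    rcases NF _ hΦ hΦr with ⟨p2, b₀, hb₀, e2⟩ | ⟨p2, b₀, hb₀, e2⟩
    · exact aux _ b b₀ hb hb₀ e1 e2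
    · exact absurd (hpar.1 p1) p2
    · exact absurd (hpar.2 p2) p1
    · exact aux _ b b₀ hb hb₀ e1 e2
  obtain ⟨h₀, hh₀, e⟩ := key
  by_cases hP : PL Q h₀
  · exact ⟨h₀, ⟨hh₀, hP⟩, e⟩
  · refine ⟨h₀ * t, ⟨?_, ?_⟩, ?_⟩
    · show (h₀.1 * t.1).right = 1
      rw [SemidirectProduct.mul_right, hh₀, ht, one_mul]
    · have := PL_mul Q hQ hL hσQ h₀ t
      exact this.2 ⟨fun h => absurd h hP, fun h => absurd h htP⟩
    · rw [e]
      congr 1
      have : h₀ * t * Φ * (h₀ * t)⁻¹ = h₀ * (t * Φ) * t⁻¹ * h₀⁻¹ := by group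
      rw [this, htΦ]
      group

end Cfsg.Agent.Lib.Helper66.OGrp
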