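import Mathlib
import Cfsg.Agent.Lib.Helper66.OLangC

set_option autoImplicit false
set_option linter.unusedSectionVars false
set_option linter.unusedVariables false
set_option linter.style.haveILetI false

/-!
# The Lang step for orthogonal groups: the plus type
-/

namespace Cfsg.Agent.Lib.Helper66.OLang

open Matrix QuadraticMap Module
open Cfsg.Agent.Lib.Helper18.AutPSL (mp mp_apply nrm nrmS hilbert90 hilbert90_one)
open Cfsg.Agent.Lib.Helper50.Quad
open Cfsg.Agent.Lib.Helper49 (plusQF plusQF_coe minusQF minusQF_coe IsLagr isLagr_of_finrank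
  not_isLagr_minusQF minusQF_nondegenerate plusQF_nondegenerate polar_quadFormPlus
  isLagr_stdLagr stdLagr)

variable {F : Type*} [Field F]

/-- hyperbolic frames -/
structure HypFrame {V : Type*} [AddCommGroup V] [Module F V] (P : QuadraticForm F V) {n : ℕ}
    (E Fv : Fin n → V) : Prop where
  qE : ∀ i, P (E i) = 0
  qF : ∀ i, P (Fv i) = 0
  EE : ∀ i j, polar P (E i) (E j) = 0
  FF : ∀ i j, polar P (Fv i) (Fv j) = 0
  EF : ∀ i j, polar P (E i) (Fv j) = if i = j then 1 else 0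

theorem polar_self_zero {V : Type*} [AddCommGroup V] [Module F V] (P : QuadraticForm F V) {e : V}
    (he : P e = 0) : polar P e e = 0 := by
  rw [polar_self, he, smul_zero]

theorem HypFrame.cons {V : Type*} [AddCommGroup V] [Module F V] {P : QuadraticForm F V} {n : ℕ}
    {E Fv : Fin n → V} (h : HypFrame P E Fv) (e f : V) (he : P e = 0) (hf : P f = 0)
    (hef : polar P e f = 1) (h1 : ∀ i, polar P e (E i) = 0) (h2 : ∀ i, polar P e (Fv i) = 0)
    (h3 : ∀ i, polar P f (E i) = 0) (h4 : ∀ i, polar P f (Fv i) = 0) :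
    HypFrame P (Fin.cons e E : Fin (n + 1) → V) (Fin.cons f Fv : Fin (n + 1) → V) where
  qE := by
    intro i
    refine Fin.cases ?_ (fun i => ?_) i
    · simpa using he
    · simpa using h.qE i
  qF := by
    intro i
    refine Fin.cases ?_ (fun i => ?_) i
    · simpa using hf
    · simpa using h.qF i
  EE := by
    intro i j
    refine Fin.cases ?_ (fun i => ?_) i <;> refine Fin.cases ?_ (fun j => ?_) j
    · simpa using polar_self_zero P he
    · simpa using h1 j
    · simpa [polar_comm] using h1 i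
    · simpa using h.EE i j
  FF := by
    intro i j
    refine Fin.cases ?_ (fun i => ?_) i <;> refine Fin.cases ?_ (fun j => ?_) j
    · simpa using polar_self_zero P hf
    · simpa using h4 j
    · simpa [polar_comm] using h4 i
    · simpa using h.FF i j
  EF := by
    intro i j
    refine Fin.cases ?_ (fun i => ?_) i <;> refine Fin.cases ?_ (fun j => ?_) j
    · simpa using hef
    · simpa [Fin.succ_ne_zero, eq_comm] using h2 j
    · have := h3 i
      rw [polar_comm] at this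
      simpa [Fin.succ_ne_zero] using this
    · simpa using h.EF i j

section plus

variable {m : ℕ}

theorem plus_single (s : Fin m ⊕ Fin m) : plusQF m F (Pi.single s 1) = 0 := by
  rw [plusQF_coe]
  unfold Cfsg.quadFormPlus
  apply Finset.sum_eq_zero
  intro i _
  rcases s with s | s <;> simp

theorem plus_polar_ll (i j : Fin m) :
    polar (plusQF m F) (Pi.single (Sum.inl i) 1) (Pi.single (Sum.inl j) 1) = 0 := by
  rw [plusQF_coe, polar_quadFormPlus]
  simp

theorem plus_polar_rr (i j : Fin m) :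
    polar (plusQF m F) (Pi.single (Sum.inr i) 1) (Pi.single (Sum.inr j) 1) = 0 := by
  rw [plusQF_coe, polar_quadFormPlus]
  simp

theorem plus_polar_lr (i j : Fin m) :
    polar (plusQF m F) (Pi.single (Sum.inl i) 1) (Pi.single (Sum.inr j) 1) =
      if i = j then 1 else 0 := by
  rw [plusQF_coe, polar_quadFormPlus]
  simp [Pi.single_apply, eq_comm]

/-- a hyperbolic frame has the Gram data of the standard basis -/
theorem HypFrame.gram {P : QuadraticForm F (Fin m ⊕ Fin m → F)}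
    {E Fv : Fin m → (Fin m ⊕ Fin m → F)} (h : HypFrame P E Fv) :
    (∀ s, P (Sum.elim E Fv s) = plusQF m F (Pi.single s 1)) ∧
      ∀ s t, polar P (Sum.elim E Fv s) (Sum.elim E Fv t) =
        polar (plusQF m F) (Pi.single s 1) (Pi.single t 1) := by
  constructor
  · rintro (i | i)
    · rw [plus_single]; exact h.qE i
    · rw [plus_single]; exact h.qF i
  · rintro (i | i) (j | j)
    · rw [plus_polar_ll]; exact h.EE i j
    · rw [plus_polar_lr]; exact h.EF i j
    · rw [polar_comm, polar_comm (plusQF m F), plus_polar_lr]; exact h.EF j i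
    · rw [plus_polar_rr]; exact h.FF i j

theorem sv_plus (σ : F ≃+* F) (v : Fin m ⊕ Fin m → F) :
    plusQF m F (sv σ v) = σ (plusQF m F v) := by
  rw [plusQF_coe]
  simp [Cfsg.quadFormPlus]

/-- the vector whose reflection interchanges (up to scalars) the first hyperbolic pair -/
def swapVec (k : ℕ) (κ : F) : Fin (k + 1) ⊕ Fin (k + 1) → F :=
  Pi.single (Sum.inl 0) 1 - κ • Pi.single (Sum.inr 0) 1

theorem Q_add_smul {V : Type*} [AddCommGroup V] [Module F V] (P : QuadraticForm F V) (α : F)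
    (u v : V) : P (α • u + v) = α ^ 2 * P u + P v + α * polar P u v := by
  rw [QuadraticMap.map_add P, QuadraticMap.map_smul, polar_smul_left]
  simp only [smul_eq_mul]
  ring

theorem plus_swapVec (k : ℕ) (κ : F) : plusQF (k + 1) F (swapVec k κ) = -κ := by
  have h : swapVec k κ = (-κ) • (Pi.single (Sum.inr 0) 1 : Fin (k + 1) ⊕ Fin (k + 1) → F) +
      Pi.single (Sum.inl 0) 1 := by
    unfold swapVec
    rw [neg_smul]; abel
  rw [h, Q_add_smul, plus_single, plus_single, polar_comm, plus_polar_lr]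
  simp

theorem polar_swapVec_inl (k : ℕ) (κ : F) (j : Fin (k + 1)) :
    polar (plusQF (k + 1) F) (swapVec k κ) (Pi.single (Sum.inl j) 1) = if j = 0 then -κ else 0 := by
  unfold swapVec
  rw [polar_sub_left, polar_smul_left, plus_polar_ll, polar_comm, plus_polar_lr]
  split_ifs <;> simp

theorem polar_swapVec_inr (k : ℕ) (κ : F) (j : Fin (k + 1)) :
    polar (plusQF (k + 1) F) (swapVec k κ) (Pi.single (Sum.inr j) 1) = if j = 0 then 1 else 0 := by
  unfold swapVec
  rw [polar_sub_left, polar_smul_left, plus_polar_rr, plus_polar_lr]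
  simp [eq_comm]

theorem sv_swapVec (σ : F ≃+* F) (k : ℕ) (κ : F) (hκ : σ κ = κ) :
    sv σ (swapVec k κ) = swapVec k κ := by
  unfold swapVec
  have : (Pi.single (Sum.inl 0) 1 - κ • Pi.single (Sum.inr 0) 1 : Fin (k + 1) ⊕ Fin (k + 1) → F) =
      Pi.single (Sum.inl 0) 1 + (-κ) • Pi.single (Sum.inr 0) 1 := by
    rw [neg_smul]; abel
  rw [this, sv_add, sv_smul, sv_single, sv_single, map_neg, hκ]

/-- **The Lang step, plus type**, with the parameter of the elliptic case made explicit. -/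
theorem lang_plus_zeta [Fintype F] (k : ℕ) (σ : F ≃+* F) (r : ℕ) (hr0 : 0 < r)
    (hr : orderOf σ = r) (ζ₀ : ↥(fixF σ)) (hζ₀ : ∀ t : ↥(fixF σ), t ^ 2 + t + ζ₀ ≠ 0)
    (g : Matrix (Fin (k + 1) ⊕ Fin (k + 1)) (Fin (k + 1) ⊕ Fin (k + 1)) F) (c : F)
    (hg : ∀ v, Cfsg.quadFormPlus (k + 1) F (g *ᵥ v) = c * Cfsg.quadFormPlus (k + 1) F v)
    (hN : nrm σ g r = 1) :
    ∃ (B : Matrix (Fin (k + 1) ⊕ Fin (k + 1)) (Fin (k + 1) ⊕ Fin (k + 1)) F) (d : F), d ≠ 0 ∧
      B.det ≠ 0 ∧
      (∀ v, Cfsg.quadFormPlus (k + 1) F (B *ᵥ v) = d * Cfsg.quadFormPlus (k + 1) F v) ∧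
      (g * mp σ B = B ∨ ∃ κ : F, κ = 4 * (ζ₀ : F) - 1 ∧ κ ≠ 0 ∧ σ κ = κ ∧
        g * mp σ B = B * Cfsg.reflectionMatrix (Cfsg.quadFormPlus (k + 1) F) (swapVec k κ)) := by
  have hQ : (polarBilin (plusQF (k + 1) F)).Nondegenerate := plusQF_nondegenerate (k + 1) F
  simp only [← plusQF_coe] at hg ⊢
  obtain ⟨ζ, hζ⟩ : ∃ ζ : F, ζ = (ζ₀ : F) := ⟨_, rfl⟩
  have hσζ : σ ζ = ζ := by rw [hζ]; exact ζ₀.2
  have hnr : ∀ t : F, σ t = t → t ^ 2 + t + ζ ≠ 0 := by
    intro t ht h0
    apply hζ₀ ⟨t, ht⟩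
    apply Subtype.ext
    rw [hζ] at h0
    simpa using h0
  have hab : ∀ z₁ z₂ : F, σ z₁ = z₁ → σ z₂ = z₂ → z₁ ^ 2 + 1 * z₁ * z₂ + ζ * z₂ ^ 2 = 0 →
      z₁ = 0 ∧ z₂ = 0 := by
    intro z₁ z₂ h1 h2 h
    have := aniso_of_noroot' ζ₀ hζ₀ ⟨z₁, h1⟩ ⟨z₂, h2⟩ (by
      apply Subtype.ext
      rw [hζ] at h
      simpa using h)
    exact ⟨congrArg Subtype.val this.1, congrArg Subtype.val this.2⟩
  obtain ⟨d, hd0, h⟩ := exists_full σ r hr0 hr g (plusQF (k + 1) F) hQ (sv_plus σ) c hg hN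
    k (by simp; ring) 1 ζ (map_one σ) hσζ hab
  rcases h with ⟨x, hx, f1, f2⟩ | ⟨x, hx, f1, f2, f3⟩
  · -- hyperbolic fixed space
    have hfr : HypFrame (d⁻¹ • plusQF (k + 1) F) x.1.1 x.1.2 :=
      ⟨hx.2.1.1, hx.2.1.2, hx.2.2.1.1, hx.2.2.1.2.1, hx.2.2.1.2.2⟩
    have hsim := sim_of_gram (plusQF (k + 1) F) d hd0 _ hfr.gram.1 hfr.gram.2
    refine ⟨colM (Sum.elim x.1.1 x.1.2), d, hd0, det_ne_zero_of_sim _ hQ _ d hd0 hsim, hsim,
      Or.inl (fixed_of_cols σ g _ ?_)⟩
    rintro (i | i)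
    · exact f1 i
    · exact f2 i
  · -- elliptic fixed space
    by_cases hroot : ∃ l : F, l ^ 2 + l + ζ = 0
    swap
    · exfalso
      push Not at hroot
      have hab' := aniso_of_noroot' ζ hroot
      obtain ⟨G, hG⟩ := iso_of_full (T2 1 1 ζ) (T2_aniso_nondeg 1 ζ hab') k ⊤ x hx (by simp; ring)
      rw [Qgen_eq_minusQF] at hG
      have hQm : (polarBilin (minusQF k F 1 ζ)).Nondegenerate :=
        minusQF_nondegenerate k F 1 ζ (Cfsg.Agent.Lib.Helper49.minus_disc_ne_zero 1 ζ hab')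
      apply not_isLagr_minusQF 1 ζ hab' hQm ((stdLagr (k + 1) F).map (G : _ →ₗ[F] _))
      apply isLagr_of_finrank hQm
      · rintro _ ⟨u, hu, rfl⟩
        show minusQF k F 1 ζ (G u) = 0
        rw [hG]
        simp only [_root_.smul_apply, smul_eq_mul]
        rw [(isLagr_stdLagr (m := k + 1) (F := F)).1 u hu, mul_zero]
      · rw [LinearEquiv.finrank_map_eq, Cfsg.Agent.Lib.Helper49.finrank_stdLagr]
        simp; ring
    · obtain ⟨l, hl⟩ := hroot
      obtain ⟨P, hP⟩ : ∃ P, P = d⁻¹ • plusQF (k + 1) F := ⟨_, rfl⟩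
      rw [← hP] at hx
      obtain ⟨-, ⟨q1, q2⟩, ⟨p1, p2, p3⟩, ⟨p4, p5⟩, t1, t2⟩ := hx
      obtain ⟨z1, hz1d⟩ : ∃ z, z = x.2 0 := ⟨_, rfl⟩
      obtain ⟨z2, hz2d⟩ : ∃ z, z = x.2 1 := ⟨_, rfl⟩
      have hz1 : P z1 = 1 := by rw [hz1d, t1 0, T2_apply]; simp
      have hz2 : P z2 = ζ := by rw [hz2d, t1 1, T2_apply]; simp
      have hz12 : polar P z1 z2 = 1 := by rw [hz1d, hz2d, t2 0 1, T2_polar]; simp
      have hcomb : ∀ α : F, P (α • z1 + z2) = α ^ 2 + α + ζ := by
        intro α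
        rw [Q_add_smul, hz1, hz2, hz12]; ring
      have hσl : σ l ≠ l := fun h => hnr l h hl
      have hl' : σ l = -1 - l := by
        have h1 : (σ l) ^ 2 + σ l + ζ = 0 := by
          have := congrArg σ hl
          simpa [hσζ] using this
        have h2 : (σ l - l) * (σ l + l + 1) = 0 := by linear_combination h1 - hl
        rcases mul_eq_zero.1 h2 with h3 | h3
        · exact absurd (sub_eq_zero.1 h3) hσl
        · linear_combination h3
      have hσl' : σ (-1 - l) = l := by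
        rw [map_sub, map_neg, map_one, hl']; ring
      obtain ⟨w1, hw1d⟩ : ∃ w, w = l • z1 + z2 := ⟨_, rfl⟩
      obtain ⟨w2, hw2d⟩ : ∃ w, w = (-1 - l) • z1 + z2 := ⟨_, rfl⟩
      have hw1 : P w1 = 0 := by rw [hw1d, hcomb]; exact hl
      have hw2 : P w2 = 0 := by rw [hw2d, hcomb]; linear_combination hl
      obtain ⟨κ, hκd⟩ : ∃ κ : F, κ = 4 * ζ - 1 := ⟨_, rfl⟩
      have hw12 : polar P w1 w2 = κ := by
        rw [hw1d, hw2d, polar_add_left, polar_add_right, polar_add_right, polar_smul_left,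
          polar_smul_right, polar_smul_left, polar_smul_right, polar_self, polar_self,
          polar_comm P z2 z1, hz1, hz2, hz12, hκd]
        simp only [smul_eq_mul, nsmul_eq_mul]
        push_cast
        linear_combination (-2 : F) * hl
      have hκ0 : κ ≠ 0 := by
        intro h0
        apply hσl
        have h1 : (2 * l + 1) ^ 2 = 0 := by
          rw [hκd] at h0
          linear_combination (4 : F) * hl - h0
        have h2 : 2 * l + 1 = 0 := pow_eq_zero_iff two_ne_zero |>.1 h1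
        rw [hl']; linear_combination -h2
      have hσκ : σ κ = κ := by
        rw [hκd, map_sub, map_mul, hσζ, map_one, map_ofNat]
      have hφ1 : phi σ g w1 = w2 := by
        rw [hw1d, hw2d, phi_add, phi_smul, hl', hz1d, hz2d, f3, f3]
      have hφ2 : phi σ g w2 = w1 := by
        rw [hw1d, hw2d, phi_add, phi_smul, hσl', hz1d, hz2d, f3, f3]
      have o1 : ∀ (α : F) i, polar P (α • z1 + z2) (x.1.1 i) = 0 := by
        intro α i
        rw [polar_add_left, polar_smul_left, polar_comm, polar_comm P z2, hz1d, hz2d, p4, p4]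
        simp
      have o2 : ∀ (α : F) i, polar P (α • z1 + z2) (x.1.2 i) = 0 := by
        intro α i
        rw [polar_add_left, polar_smul_left, polar_comm, polar_comm P z2, hz1d, hz2d, p5, p5]
        simp
      have hfr0 : HypFrame P x.1.1 x.1.2 := ⟨q1, q2, p1, p2, p3⟩
      have hfr := hfr0.cons w1 (κ⁻¹ • w2) hw1
        (by rw [QuadraticMap.map_smul, hw2, smul_zero])
        (by rw [polar_smul_right, hw12, smul_eq_mul, inv_mul_cancel₀ hκ0])
        (fun i => by rw [hw1d]; exact o1 _ i) (fun i => by rw [hw1d]; exact o2 _ i)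
        (fun i => by rw [polar_smul_left, hw2d, o1, smul_zero])
        (fun i => by rw [polar_smul_left, hw2d, o2, smul_zero])
      rw [hP] at hfr
      have hsim := sim_of_gram (plusQF (k + 1) F) d hd0 _ hfr.gram.1 hfr.gram.2
      obtain ⟨col, hcol⟩ : ∃ col, col = Sum.elim (Fin.cons w1 x.1.1 : Fin (k + 1) → _)
        (Fin.cons (κ⁻¹ • w2) x.1.2 : Fin (k + 1) → _) := ⟨_, rfl⟩
      rw [← hcol] at hsim
      refine ⟨colM col, d, hd0, det_ne_zero_of_sim _ hQ _ d hd0 hsim, hsim,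
        Or.inr ⟨κ, by rw [hκd, hζ], hκ0, hσκ, ?_⟩⟩
      have hBu : colM col *ᵥ swapVec k κ = w1 - w2 := by
        unfold swapVec
        rw [Matrix.mulVec_sub, Matrix.mulVec_smul, colM_single, colM_single, hcol]
        simp only [Sum.elim_inl, Sum.elim_inr, Fin.cons_zero]
        rw [smul_smul, mul_inv_cancel₀ hκ0, one_smul]
      apply matrix_ext_single
      intro s
      rw [mul_mp_mulVec_single, colM_single, ← Matrix.mulVec_mulVec,
        Cfsg.Agent.Lib.Helper18.reflectionMatrix_mulVec, Matrix.mulVec_sub, Matrix.mulVec_smul,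
        colM_single, hBu, plus_swapVec]
      rcases s with j | j
      · rw [polar_swapVec_inl]
        refine Fin.cases ?_ (fun j => ?_) j
        · rw [hcol]
          simp only [Sum.elim_inl, Fin.cons_zero, if_true]
          rw [hφ1, inv_mul_cancel₀ (neg_ne_zero.2 hκ0), one_smul]
          abel
        · rw [hcol]
          simp only [Sum.elim_inl, Fin.cons_succ, Fin.succ_ne_zero, if_false, mul_zero, zero_smul,
            sub_zero]
          exact f1 j
      · rw [polar_swapVec_inr]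
        refine Fin.cases ?_ (fun j => ?_) j
        · rw [hcol]
          simp only [Sum.elim_inr, Fin.cons_zero, if_true, mul_one]
          rw [phi_smul, hφ2, map_inv₀, hσκ, inv_neg, neg_smul, smul_sub]
          abel
        · rw [hcol]
          simp only [Sum.elim_inr, Fin.cons_succ, Fin.succ_ne_zero, if_false, mul_zero, zero_smul,
            sub_zero]
          exact f2 j

/-- **The Lang step, plus type.** -/
theorem lang_plus [Fintype F] (k : ℕ) (σ : F ≃+* F) (r : ℕ) (hr0 : 0 < r) (hr : orderOf σ = r)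
    (g : Matrix (Fin (k + 1) ⊕ Fin (k + 1)) (Fin (k + 1) ⊕ Fin (k + 1)) F) (c : F)
    (hg : ∀ v, Cfsg.quadFormPlus (k + 1) F (g *ᵥ v) = c * Cfsg.quadFormPlus (k + 1) F v)
    (hN : nrm σ g r = 1) :
    ∃ (B : Matrix (Fin (k + 1) ⊕ Fin (k + 1)) (Fin (k + 1) ⊕ Fin (k + 1)) F) (d : F), d ≠ 0 ∧
      B.det ≠ 0 ∧
      (∀ v, Cfsg.quadFormPlus (k + 1) F (B *ᵥ v) = d * Cfsg.quadFormPlus (k + 1) F v) ∧
      (g * mp σ B = B ∨ ∃ κ : F, κ ≠ 0 ∧ σ κ = κ ∧
        g * mp σ B = B * Cfsg.reflectionMatrix (Cfsg.quadFormPlus (k + 1) F) (swapVec k κ)) := by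
  obtain ⟨ζ₀, hζ₀⟩ := exists_noroot (F := ↥(fixF σ))
  obtain ⟨B, d, h1, h2, h3, h4⟩ := lang_plus_zeta k σ r hr0 hr ζ₀ hζ₀ g c hg hN
  refine ⟨B, d, h1, h2, h3, ?_⟩
  rcases h4 with h4 | ⟨κ, -, h5, h6, h7⟩
  · exact Or.inl h4
  · exact Or.inr ⟨κ, h5, h6, h7⟩

end plus

end Cfsg.Agent.Lib.Helper66.OLang
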