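import Mathlib
import Cfsg.Agent.Lib.Helper66.OGrpC
import Cfsg.Agent.Lib.Helper66.OLangD
import Cfsg.Agent.Lib.Helper18.OrthRefl

set_option autoImplicit false
set_option linter.unusedSectionVars false
set_option linter.unusedVariables false

/-!
# Coset conjugacy for `PΩ⁺`: the normal form and the main theorem
-/

namespace Cfsg.Agent.Lib.Helper66.OGrp

open Matrix QuadraticMap Module
open scoped MatrixGroups
open Cfsg.Agent.Lib.Helper49 (GamL GamO semiFun semiFun_mul semiFun_one semiFun_inv_semiFun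
  semiFun_semiFun_inv semiFun_add semiFun_smul semiFun_inl glMap coe_glMap cGam cGam_induced
  eq_cGam_of_induced mem_GamO IsLagr ker_cGam scalHom scalHom_left scalHom_right cGam_scalHom
  plusQF plusQF_coe plusQF_nondegenerate isLagr_stdLagr stdLagr gammaPOmega_eq_range)
open Cfsg.Agent.Lib.Helper6.OA (GO O_le_GO)
open Cfsg.Agent.Lib.Helper18.AutPSL (mp mp_apply mp_eq_map mp_one mp_smul nrm nrm_zero nrm_succ
  nrm_succ' nrm_smul nrmS nrmS_surj)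
open Cfsg.Agent.Lib.Helper66.OLang (sv sv_add sv_smul sv_single sv_mulVec sv_plus fixF swapVec
  plus_swapVec sv_swapVec lang_plus_zeta matrix_ext_single)

variable {ι : Type} [Fintype ι] [DecidableEq ι] {F : Type*} [Field F]

section generic

variable (Q : QuadraticForm F (ι → F))
  (hσQ : ∀ (σ : F ≃+* F) (v : ι → F), Q (fun i => σ (v i)) = σ (Q v))

/-- linear elements of `ΓO` -/
def gG (g : GL ι F) (hg : g ∈ GO ⇑Q) : ↥(GamO ⇑Q) := ⟨SemidirectProduct.inl g, inl_mem_GamO _ g hg⟩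

/-- the standard field automorphisms in `ΓO` -/
def gS (σ : F ≃+* F) : ↥(GamO ⇑Q) := ⟨SemidirectProduct.inr σ, inr_mem Q hσQ σ⟩

include hσQ in
theorem mp_refl (σ : F ≃+* F) (v : ι → F) (hv : sv σ v = v) :
    mp σ (Cfsg.reflectionMatrix ⇑Q v) = Cfsg.reflectionMatrix ⇑Q v := by
  have hfix : ∀ w : ι → F, sv σ w = w → σ (Q w) = Q w := by
    intro w hw
    rw [← hσQ σ w]
    exact congrArg Q hw
  apply matrix_ext_single
  intro s
  have h1 : mp σ (Cfsg.reflectionMatrix ⇑Q v) *ᵥ Pi.single s 1 =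
      sv σ (Cfsg.reflectionMatrix ⇑Q v *ᵥ Pi.single s 1) := by
    rw [sv_mulVec, sv_single]
  rw [h1, Cfsg.Agent.Lib.Helper18.reflectionMatrix_mulVec]
  have h2 : (Pi.single s 1 - ((Q v)⁻¹ * polar ⇑Q v (Pi.single s 1)) • v : ι → F) =
      Pi.single s 1 + (-((Q v)⁻¹ * polar ⇑Q v (Pi.single s 1))) • v := by
    rw [neg_smul]; abel
  rw [h2, sv_add, sv_smul, sv_single, hv]
  congr 2
  rw [map_neg, map_mul, map_inv₀, hfix v hv]
  congr 2
  unfold polar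
  rw [map_sub, map_sub, hfix v hv, hfix _ (sv_single σ s),
    hfix _ (by rw [sv_add, hv, sv_single])]

/-- criterion for conjugacy in `ΓO` -/
theorem conj_eq (γ b Ψ z : ↥(GamO ⇑Q)) (hz : z.1.right = 1) (hb : b.1.right = 1)
    (hγΨ : γ.1.right = Ψ.1.right)
    (hmat : (z.1.left : Matrix ι ι F) * (γ.1.left : Matrix ι ι F) *
      mp γ.1.right (b.1.left : Matrix ι ι F) = (b.1.left : Matrix ι ι F) * (Ψ.1.left : Matrix ι ι F)) :
    z * γ = b * Ψ * b⁻¹ := by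
  rw [eq_mul_inv_iff_mul_eq]
  apply Subtype.ext
  show z.1 * γ.1 * b.1 = b.1 * Ψ.1
  ext1
  · apply Units.ext
    simp only [SemidirectProduct.mul_left, SemidirectProduct.mul_right, hz, hb, map_one,
      MulAut.one_apply, one_mul, Units.val_mul, coe_glMap]
    exact hmat
  · simp only [SemidirectProduct.mul_right, hz, hb, one_mul, mul_one]
    exact hγΨ

end generic

section plus

variable [Fintype F] (k : ℕ)

theorem hσQ_plus (m : ℕ) (σ : F ≃+* F) (v : Fin m ⊕ Fin m → F) :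
    plusQF m F (fun i => σ (v i)) = σ (plusQF m F v) := sv_plus σ v

/-- the reflection in a vector, in `ΓO` -/
noncomputable def gR (m : ℕ) (v : Fin m ⊕ Fin m → F) : ↥(GamO ⇑(plusQF m F)) :=
  gG (plusQF m F) (Cfsg.Agent.Lib.Helper18.refl (plusQF m F) v).1
    (O_le_GO _ (Cfsg.Agent.Lib.Helper18.refl (plusQF m F) v).2)

theorem gR_left (m : ℕ) (v : Fin m ⊕ Fin m → F) :
    (((gR m v).1.left : GL (Fin m ⊕ Fin m) F) : Matrix (Fin m ⊕ Fin m) (Fin m ⊕ Fin m) F) =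
      Cfsg.reflectionMatrix ⇑(plusQF m F) v := rfl

theorem gR_right (m : ℕ) (v : Fin m ⊕ Fin m → F) : (gR m v).1.right = 1 := rfl

theorem not_PL_gR (m : ℕ) (v : Fin m ⊕ Fin m → F) (hv : plusQF m F v ≠ 0) :
    ¬ PL (plusQF m F) (gR m v) :=
  not_pres_refl (plusQF m F) (plusQF_nondegenerate m F) isLagr_stdLagr _
    (O_le_GO _ (Cfsg.Agent.Lib.Helper18.refl (plusQF m F) v).2) v hv rfl

set_option maxHeartbeats 1600000 in
/-- **The normal form.** -/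
theorem nf_plus (hk : 7 ≤ 2 * (k + 1)) (σ : F ≃+* F) (r : ℕ) (hr0 : 0 < r) (hr : orderOf σ = r)
    (ζ₀ : ↥(fixF σ)) (hζ₀ : ∀ t : ↥(fixF σ), t ^ 2 + t + ζ₀ ≠ 0)
    (γ : ↥(GamO ⇑(plusQF (k + 1) F))) (hγ : γ.1.right = σ)
    (h : (cGam ⇑(plusQF (k + 1) F) γ) ^ r = 1) :
    (PL (plusQF (k + 1) F) γ ∧ ∃ b : ↥(GamO ⇑(plusQF (k + 1) F)), b.1.right = 1 ∧
      cGam ⇑(plusQF (k + 1) F) γ = cGam ⇑(plusQF (k + 1) F)
        (b * gS (plusQF (k + 1) F) (hσQ_plus (k + 1)) σ * b⁻¹)) ∨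
    (¬ PL (plusQF (k + 1) F) γ ∧ ∃ b : ↥(GamO ⇑(plusQF (k + 1) F)), b.1.right = 1 ∧
      cGam ⇑(plusQF (k + 1) F) γ = cGam ⇑(plusQF (k + 1) F)
        (b * (gR (k + 1) (swapVec k (4 * (ζ₀ : F) - 1)) *
          gS (plusQF (k + 1) F) (hσQ_plus (k + 1)) σ) * b⁻¹)) := by
  obtain ⟨Q, hQdef⟩ : ∃ Q, Q = plusQF (k + 1) F := ⟨_, rfl⟩
  have hQ : (polarBilin (plusQF (k + 1) F)).Nondegenerate := plusQF_nondegenerate (k + 1) F
  have hL : IsLagr (plusQF (k + 1) F) (stdLagr (k + 1) F) := isLagr_stdLagr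
  have hσQ := hσQ_plus (F := F) (k + 1)
  have hd : 7 ≤ Fintype.card (Fin (k + 1) ⊕ Fin (k + 1)) := by
    simp only [Fintype.card_sum, Fintype.card_fin]; omega
  obtain ⟨c, hc⟩ := left_mem _ hσQ _ γ.2
  have hker : cGam ⇑(plusQF (k + 1) F) (γ ^ r) = 1 := by rw [map_pow]; exact h
  obtain ⟨-, lam, hlam⟩ := ker_cGam _ hQ hd (γ ^ r) hker
  have hσr : σ ^ r = 1 := by rw [← hr]; exact pow_orderOf_eq_one σ
  have hN : nrm σ γ.1.left.1 r = (lam : F) • 1 := by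
    rw [← hγ, ← pow_left]
    exact hlam
  have hfix : σ (lam : F) = lam := by
    have h1 := nrm_succ σ γ.1.left.1 r
    rw [nrm_succ', hσr, mp_one, hN, mp_smul, map_one, Matrix.smul_mul, Matrix.one_mul,
      Matrix.mul_smul, Matrix.mul_one] at h1
    have h2 := congrArg (fun M => M * (γ.1.left⁻¹).1) h1
    simp only [Matrix.smul_mul, Units.mul_inv] at h2
    have h3 := congrFun (congrFun h2 (Sum.inl 0)) (Sum.inl 0)
    simpa using h3.symm
  obtain ⟨ν, hν0, hν⟩ := nrmS_surj σ r hr0 hr (lam : F)⁻¹ (inv_ne_zero lam.ne_zero)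
    (by rw [map_inv₀, hfix])
  obtain ⟨B, d, hd0, hdet, hsim, hcase⟩ := lang_plus_zeta k σ r hr0 hr ζ₀ hζ₀
    (ν • γ.1.left.1) (ν * ν * c) (by
      intro v
      rw [← plusQF_coe, Matrix.smul_mulVec, QuadraticMap.map_smul, hc, smul_eq_mul]; ring)
    (by rw [nrm_smul, hν, hN, smul_smul, inv_mul_cancel₀ lam.ne_zero, one_smul])
  rw [← plusQF_coe] at hsim hcase
  have hBu : GeneralLinearGroup.mkOfDetNeZero B hdet ∈ GO ⇑(plusQF (k + 1) F) :=
    ⟨Units.mk0 d hd0, hsim⟩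
  obtain ⟨b, hbdef⟩ : ∃ b, b = gG (plusQF (k + 1) F) _ hBu := ⟨_, rfl⟩
  have hbr : b.1.right = 1 := by rw [hbdef]; rfl
  have hbl : b.1.left.1 = B := by rw [hbdef]; rfl
  obtain ⟨z, hzdef⟩ : ∃ z, z = scalHom (plusQF (k + 1) F) (Units.mk0 ν hν0) := ⟨_, rfl⟩
  have hzr : z.1.right = 1 := by rw [hzdef]; rfl
  have hzl : z.1.left.1 = ν • 1 := by rw [hzdef, scalHom_left]; rfl
  have hcz : cGam ⇑(plusQF (k + 1) F) z = 1 := by rw [hzdef, cGam_scalHom]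
  have hPz : PL (plusQF (k + 1) F) z := pres_scalar _ hQ hL _ ν hν0 hzl
  have hfin : ∀ Ψ : ↥(GamO ⇑(plusQF (k + 1) F)), z * γ = b * Ψ * b⁻¹ →
      (PL (plusQF (k + 1) F) γ ↔ PL (plusQF (k + 1) F) Ψ) ∧
      cGam ⇑(plusQF (k + 1) F) γ = cGam ⇑(plusQF (k + 1) F) (b * Ψ * b⁻¹) := by
    intro Ψ e
    constructor
    · rw [← PL_conj _ hQ hL hσQ b Ψ, ← e, PL_mul _ hQ hL hσQ]
      tauto
    · rw [← e, map_mul, hcz, one_mul]
  rcases hcase with hA | ⟨κ, hκ, hκ0, hσκ, hB⟩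
  · left
    obtain ⟨p, e⟩ := hfin (gS _ hσQ σ) (conj_eq _ γ b _ z hzr hbr hγ (by
      rw [hzl, hbl, hγ, Matrix.smul_mul, Matrix.one_mul, hA]
      show B = B * (1 : GL (Fin (k + 1) ⊕ Fin (k + 1)) F).1
      rw [Units.val_one, Matrix.mul_one]))
    exact ⟨p.2 (pres_one _ hQ hL), b, hbr, e⟩
  · right
    rw [hκ] at hB hκ0
    obtain ⟨p, e⟩ := hfin (gR (k + 1) (swapVec k (4 * (ζ₀ : F) - 1)) * gS _ hσQ σ)
      (conj_eq _ γ b _ z hzr hbr (by rw [hγ]; show σ = 1 * σ; rw [one_mul]) (by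
      rw [hzl, hbl, hγ, Matrix.smul_mul, Matrix.one_mul, hB]
      congr 1
      show _ = ((gR (k + 1) (swapVec k (4 * (ζ₀ : F) - 1))).1 *
        (gS (plusQF (k + 1) F) hσQ σ).1).left.1
      rw [SemidirectProduct.mul_left, gR_right, map_one, MulAut.one_apply, Units.val_mul, gR_left]
      show _ = _ * (1 : GL (Fin (k + 1) ⊕ Fin (k + 1)) F).1
      rw [Units.val_one, Matrix.mul_one]))
    refine ⟨fun hP => ?_, b, hbr, e⟩
    have h1 := p.1 hP
    rw [PL_mul _ hQ hL hσQ] at h1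
    have h2 : PL (plusQF (k + 1) F) (gS _ hσQ σ) := pres_one _ hQ hL
    exact not_PL_gR (k + 1) _ (by rw [plus_swapVec]; exact neg_ne_zero.2 hκ0) (h1.2 h2)

end plus

end Cfsg.Agent.Lib.Helper66.OGrp
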