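import Mathlib
import Cfsg.Agent.Lib.Helper66.OGrpA
import Cfsg.Agent.Lib.Helper66.OLangC
import Cfsg.Agent.Lib.Helper6.OA.InstDiagMinus

set_option autoImplicit false
set_option linter.unusedSectionVars false
set_option linter.unusedVariables false

/-!
# Minus type: transport of class preservation (over a quadratic extension) along semilinear
similarities defined over the ground field
-/

namespace Cfsg.Agent.Lib.Helper66.OMin

open Matrix QuadraticMap Module
open Cfsg.Agent.Lib.Helper49 (minusQF minusQF_coe)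
open Cfsg.Agent.Lib.Helper6.OA (rat rat_add rat_single map_mulVec_rat quad_ext_basis minus_compat)
open Cfsg.Agent.Lib.Helper18.AutPSL (mp mp_apply mp_eq_map)
open Cfsg.Agent.Lib.Helper66.OLang (sv sv_apply sv_symm_sv)
open Cfsg.Agent.Lib.Helper66.OGrp (preserves_transport)

section baseChange

variable {ι : Type} [Fintype ι] [DecidableEq ι] {F K : Type*} [Field F] [Field K] [Algebra F K]

/-- base change of a similarity between two forms -/
theorem sim_baseChange2 (QF QF' : QuadraticForm F (ι → F)) (QK QK' : QuadraticForm K (ι → K))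
    (hc : ∀ v : ι → F, QK (rat K v) = algebraMap F K (QF v))
    (hc' : ∀ v : ι → F, QK' (rat K v) = algebraMap F K (QF' v))
    (g : Matrix ι ι F) (c : F) (hg : ∀ v, QF' (g *ᵥ v) = c * QF v) (w : ι → K) :
    QK' (g.map (algebraMap F K) *ᵥ w) = algebraMap F K c * QK w := by
  obtain ⟨Q₁, hQ₁⟩ : ∃ Q₁ : QuadraticForm K (ι → K),
    Q₁ = QK'.comp (Matrix.toLin' (g.map (algebraMap F K))) := ⟨_, rfl⟩
  obtain ⟨Q₂, hQ₂⟩ : ∃ Q₂ : QuadraticForm K (ι → K), Q₂ = (algebraMap F K c) • QK := ⟨_, rfl⟩
  have hr : ∀ v : ι → F, Q₁ (rat K v) = Q₂ (rat K v) := by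
    intro v
    rw [hQ₁, hQ₂, QuadraticMap.comp_apply, Matrix.toLin'_apply, map_mulVec_rat, hc', hg,
      _root_.smul_apply, hc, map_mul, smul_eq_mul]
  have : Q₁ = Q₂ := by
    apply quad_ext_basis (Pi.basisFun K ι)
    · intro i
      rw [Pi.basisFun_apply, ← rat_single (F := F) (K := K) i, hr]
    · intro i j
      unfold polar
      rw [Pi.basisFun_apply, Pi.basisFun_apply, ← rat_single (F := F) (K := K) i,
        ← rat_single (F := F) (K := K) j, ← rat_add, hr, hr, hr]
  have h2 := congrArg (fun Q : QuadraticForm K (ι → K) => Q w) this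
  rw [hQ₁, hQ₂] at h2
  simpa [Algebra.smul_def] using h2

end baseChange

section transport

universe u

variable {F : Type*} {K K' : Type u} [Field F] [Field K] [Field K'] [Algebra F K] [Algebra F K']
  {m : ℕ}

/-- **Transport for the minus type.**  A `τ`-semilinear similarity `v ↦ B τ(v)` from the form with
parameters `(a, b)` to the one with parameters `(a', b')`, and an isomorphism `e : K ≃ K'` of
extension fields inducing `τ` on `F`. -/
theorem transport_minus (τ : F ≃+* F) (e : K ≃+* K')
    (he : ∀ x : F, e (algebraMap F K x) = algebraMap F K' (τ x)) (a b a' b' : F)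
    (B : Matrix ((Fin m ⊕ Fin m) ⊕ Fin 2) ((Fin m ⊕ Fin m) ⊕ Fin 2) F) (hBdet : B.det ≠ 0)
    (c : F) (hc0 : c ≠ 0)
    (hB : ∀ v, Cfsg.quadFormMinus m F a' b' (B *ᵥ sv τ v) = c * τ (Cfsg.quadFormMinus m F a b v))
    (g g' : Matrix ((Fin m ⊕ Fin m) ⊕ Fin 2) ((Fin m ⊕ Fin m) ⊕ Fin 2) F)
    (hgg : g' * B = B * mp τ g)
    (h : Cfsg.PreservesSingularClasses
      (Cfsg.quadFormMinus m K (algebraMap F K a) (algebraMap F K b)) (g.map (algebraMap F K))) :
    Cfsg.PreservesSingularClasses
      (Cfsg.quadFormMinus m K' (algebraMap F K' a') (algebraMap F K' b'))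
      (g'.map (algebraMap F K')) := by
  have hunit : IsUnit B.det := isUnit_iff_ne_zero.2 hBdet
  have h1 : (B⁻¹).map (algebraMap F K') * B.map (algebraMap F K') = 1 := by
    rw [← Matrix.map_mul, Matrix.nonsing_inv_mul _ hunit, Matrix.map_one _ (map_zero _) (map_one _)]
  have h2 : B.map (algebraMap F K') * (B⁻¹).map (algebraMap F K') = 1 := by
    rw [← Matrix.map_mul, Matrix.mul_nonsing_inv _ hunit, Matrix.map_one _ (map_zero _) (map_one _)]
  let T : (((Fin m ⊕ Fin m) ⊕ Fin 2) → K) ≃+ (((Fin m ⊕ Fin m) ⊕ Fin 2) → K') :=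
    { toFun := fun w => B.map (algebraMap F K') *ᵥ (fun i => e (w i))
      invFun := fun w' => fun i => e.symm (((B⁻¹).map (algebraMap F K') *ᵥ w') i)
      left_inv := fun w => by
        funext i
        simp only [Matrix.mulVec_mulVec, h1, Matrix.one_mulVec, RingEquiv.symm_apply_apply]
      right_inv := fun w' => by
        simp only [RingEquiv.apply_symm_apply]
        rw [Matrix.mulVec_mulVec, h2, Matrix.one_mulVec]
      map_add' := fun u v => by
        rw [← Matrix.mulVec_add]
        congr 1
        funext i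
        simp }
  have hTdef : ∀ w, T w = B.map (algebraMap F K') *ᵥ (fun i => e (w i)) := fun _ => rfl
  -- the twisted form over `F`
  have hB' : ∀ v, minusQF m F a' b' (B *ᵥ v) = c * minusQF m F (τ a) (τ b) v := by
    intro v
    have := hB (sv τ.symm v)
    rw [sv_symm_sv] at this
    rw [minusQF_coe, minusQF_coe, this]
    congr 1
    simp [Cfsg.quadFormMinus]
  have hQT : ∀ w, Cfsg.quadFormMinus m K' (algebraMap F K' a') (algebraMap F K' b') (T w) =
      algebraMap F K' c * e (Cfsg.quadFormMinus m K (algebraMap F K a) (algebraMap F K b) w) := by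
    intro w
    have := sim_baseChange2 (K := K') (minusQF m F (τ a) (τ b)) (minusQF m F a' b')
      (minusQF m K' (algebraMap F K' (τ a)) (algebraMap F K' (τ b)))
      (minusQF m K' (algebraMap F K' a') (algebraMap F K' b'))
      (minus_compat K') (minus_compat K') B c hB' (fun i => e (w i))
    rw [minusQF_coe, minusQF_coe] at this
    rw [hTdef, this]
    congr 1
    simp [Cfsg.quadFormMinus, he]
  refine preserves_transport e _ _ T (fun x v => ?_) (fun v => ?_) _ _ (fun v => ?_) h
  · rw [hTdef, hTdef, ← Matrix.mulVec_smul]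
    congr 1
    funext i
    simp
  · rw [hQT]
    constructor
    · intro h0
      rcases mul_eq_zero.1 h0 with h3 | h3
      · exact absurd ((algebraMap F K').injective (by rw [h3, map_zero])) hc0
      · simpa using h3
    · intro h0
      rw [h0]; simp
  · rw [hTdef, hTdef, Matrix.mulVec_mulVec, ← Matrix.map_mul, hgg, Matrix.map_mul,
      ← Matrix.mulVec_mulVec]
    congr 1
    funext i
    have h3 := RingHom.map_mulVec (e : K →+* K') (g.map (algebraMap F K)) v i
    simp only [RingHom.coe_coe] at h3
    rw [h3]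
    congr 2
    ext i j
    simp [mp_apply, he]

end transport

end Cfsg.Agent.Lib.Helper66.OMin
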