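import Mathlib
import Cfsg.Agent.Lib.Helper66.OMinA
import Cfsg.Agent.Lib.Helper66.OGrpB
import Cfsg.Agent.Lib.Helper49.GamO7

set_option autoImplicit false
set_option linter.unusedSectionVars false
set_option linter.unusedVariables false
set_option linter.style.haveILetI false

/-!
# Minus type: the class-preserving similarities form a normal subgroup of `ΓO`
-/

namespace Cfsg.Agent.Lib.Helper66.OMin

open Matrix QuadraticMap Module
open scoped MatrixGroups
open Cfsg.Agent.Lib.Helper49 (minusQF minusQF_coe GamL GamO semiFun glMap coe_glMap cGam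
  cGam_induced eq_cGam_of_induced mem_GamO IsLagr exists_frob)
open Cfsg.Agent.Lib.Helper6.OA (GO rat rat_add rat_single map_mulVec_rat minus_compat
  sim_baseChange isLagr_minus)
open Cfsg.Agent.Lib.Helper18.AutPSL (mp mp_apply mp_eq_map mp_one)
open Cfsg.Agent.Lib.Helper66.OLang (sv sv_apply matrix_ext_single)
open Cfsg.Agent.Lib.Helper66.OGrp (pres_mul pres_one pres_scalar not_pres_refl left_mem_GO
  inl_mem_GamO)

/-- automorphisms of a finite field extend to finite extension fields -/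
theorem exists_ext_aut {F K : Type*} [Field F] [Fintype F] [Field K] [Finite K] [Algebra F K]
    (τ : F ≃+* F) : ∃ τ' : K ≃+* K, ∀ x : F, τ' (algebraMap F K x) = algebraMap F K (τ x) := by
  cases nonempty_fintype K
  obtain ⟨p, hp⟩ := CharP.exists F
  obtain ⟨n, hpp, hn⟩ := FiniteField.card F p
  haveI := Fact.mk hpp
  haveI : CharP K p := charP_of_injective_algebraMap (algebraMap F K).injective p
  obtain ⟨n', -, hn'⟩ := FiniteField.card K p
  obtain ⟨φ, hφ, -, hall, -⟩ := exists_frob (F := F) (p := p) (f := n) hn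
  obtain ⟨φ', hφ', -, -, -⟩ := exists_frob (F := K) (p := p) (f := n') hn'
  obtain ⟨k, rfl⟩ := hall τ
  refine ⟨φ' ^ k, fun x => ?_⟩
  induction k with
  | zero => simp
  | succ k ih =>
    rw [pow_succ', pow_succ', RingAut.mul_apply, RingAut.mul_apply, ih, hφ', hφ, map_pow]

universe u

variable {F : Type u} [Field F] [Fintype F] {m : ℕ} (a b : F)

/-- class preservation, read over the extension field `K` -/
def PK (K : Type u) [Field K] [Algebra F K]
    (g : Matrix ((Fin m ⊕ Fin m) ⊕ Fin 2) ((Fin m ⊕ Fin m) ⊕ Fin 2) F) : Prop :=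
  Cfsg.PreservesSingularClasses (Cfsg.quadFormMinus m K (algebraMap F K a) (algebraMap F K b))
    (g.map (algebraMap F K))

theorem PK_indep (K K' : Type u) [Field K] [Algebra F K] [Field K'] [Algebra F K']
    (hK : finrank F K = 2) (hK' : finrank F K' = 2)
    (g : Matrix ((Fin m ⊕ Fin m) ⊕ Fin 2) ((Fin m ⊕ Fin m) ⊕ Fin 2) F) (h : PK a b K g) :
    PK a b K' g := by
  obtain ⟨p, hp⟩ := CharP.exists F
  obtain ⟨n, hpp, hn⟩ := FiniteField.card F p
  haveI := Fact.mk hpp
  let e : K ≃ₐ[F] K' := (FiniteField.algEquivExtension F p 2 K hK).trans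
    (FiniteField.algEquivExtension F p 2 K' hK').symm
  refine transport_minus (RingEquiv.refl F) e.toRingEquiv (fun x => e.commutes x) a b a b 1
    (by simp) 1 one_ne_zero (fun v => ?_) g g ?_ h
  · rw [Matrix.one_mulVec, one_mul]
    rfl
  · rw [Matrix.mul_one, Matrix.one_mul]
    exact (mp_one g).symm

theorem presMinus_iff (K : Type u) [Field K] [Algebra F K] (hK : finrank F K = 2)
    (g : Matrix ((Fin m ⊕ Fin m) ⊕ Fin 2) ((Fin m ⊕ Fin m) ⊕ Fin 2) F) :
    Cfsg.PreservesSingularClassesMinus m a b g ↔ PK a b K g := by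
  constructor
  · rintro ⟨K', _, _, hK', h⟩
    exact PK_indep a b K' K hK' hK g h
  · intro h
    exact ⟨K, _, _, hK, h⟩

variable (hab : ∀ z₁ z₂ : F, z₁ ^ 2 + a * z₁ * z₂ + b * z₂ ^ 2 = 0 → z₁ = 0 ∧ z₂ = 0)

include hab in
/-- a quadratic extension, with all the data needed -/
theorem exists_K : ∃ (K : Type u) (_ : Field K) (_ : Algebra F K), finrank F K = 2 ∧
    Finite K ∧ (polarBilin (minusQF m K (algebraMap F K a) (algebraMap F K b))).Nondegenerate ∧
    ∃ L, IsLagr (minusQF m K (algebraMap F K a) (algebraMap F K b)) L := by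
  haveI : Fact (∀ r : F, r ^ 2 ≠ -b + -a * r) := ⟨fun r hr => by
    have := (hab r 1 (by rw [hr]; ring)).2
    exact one_ne_zero this⟩
  have hK : finrank F (QuadraticAlgebra F (-b) (-a)) = 2 := QuadraticAlgebra.finrank_eq_two _ _
  haveI : Module.Finite F (QuadraticAlgebra F (-b) (-a)) :=
    Module.finite_of_finrank_pos (by omega)
  haveI : Finite (QuadraticAlgebra F (-b) (-a)) := Module.finite_of_finite F
  cases nonempty_fintype (QuadraticAlgebra F (-b) (-a))
  obtain ⟨α, β, hne, hs, hp⟩ := Cfsg.Agent.S2679.exists_roots hK a b hab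
  obtain ⟨hnd, hL⟩ := isLagr_minus m hs hp hne
  exact ⟨QuadraticAlgebra F (-b) (-a), inferInstance, inferInstance, hK, inferInstance, hnd, _, hL⟩

/-- base change of elements of `GL` -/
noncomputable abbrev bcG (K : Type u) [Field K] [Algebra F K]
    (g : GL ((Fin m ⊕ Fin m) ⊕ Fin 2) F) : GL ((Fin m ⊕ Fin m) ⊕ Fin 2) K :=
  Matrix.GeneralLinearGroup.map (algebraMap F K) g

theorem bcG_coe (K : Type u) [Field K] [Algebra F K] (g : GL ((Fin m ⊕ Fin m) ⊕ Fin 2) F) :
    (bcG K g).1 = g.1.map (algebraMap F K) := rfl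

theorem bcG_mul (K : Type u) [Field K] [Algebra F K] (g h : GL ((Fin m ⊕ Fin m) ⊕ Fin 2) F) :
    bcG K (g * h) = bcG K g * bcG K h := map_mul _ _ _

theorem bcG_one (K : Type u) [Field K] [Algebra F K] :
    bcG K (1 : GL ((Fin m ⊕ Fin m) ⊕ Fin 2) F) = 1 := map_one _

theorem bcG_mem (K : Type u) [Field K] [Algebra F K] (g : GL ((Fin m ⊕ Fin m) ⊕ Fin 2) F)
    (hg : g ∈ GO ⇑(minusQF m F a b)) :
    bcG K g ∈ GO ⇑(minusQF m K (algebraMap F K a) (algebraMap F K b)) := by
  obtain ⟨c, hc⟩ := hg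
  exact ⟨Units.map (algebraMap F K : F →* K) c, fun w =>
    sim_baseChange _ _ (minus_compat K) g.1 c hc w⟩

theorem PK_iff (K : Type u) [Field K] [Algebra F K] (g : GL ((Fin m ⊕ Fin m) ⊕ Fin 2) F) :
    PK a b K g.1 ↔ Cfsg.PreservesSingularClasses
      ⇑(minusQF m K (algebraMap F K a) (algebraMap F K b)) (bcG K g).1 := by
  unfold PK
  rw [minusQF_coe, bcG_coe]

include hab in
theorem presM_mul (g h : GL ((Fin m ⊕ Fin m) ⊕ Fin 2) F) (hg : g ∈ GO ⇑(minusQF m F a b))
    (hh : h ∈ GO ⇑(minusQF m F a b)) :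
    Cfsg.PreservesSingularClassesMinus m a b (g * h : GL ((Fin m ⊕ Fin m) ⊕ Fin 2) F).1 ↔
      (Cfsg.PreservesSingularClassesMinus m a b g.1 ↔
        Cfsg.PreservesSingularClassesMinus m a b h.1) := by
  obtain ⟨K, _, _, hK, -, hnd, L, hL⟩ := exists_K (m := m) a b hab
  rw [presMinus_iff a b K hK, presMinus_iff a b K hK, presMinus_iff a b K hK, PK_iff, PK_iff,
    PK_iff, bcG_mul]
  exact pres_mul _ hnd hL _ _ (bcG_mem a b K g hg) (bcG_mem a b K h hh)

include hab in
theorem presM_one :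
    Cfsg.PreservesSingularClassesMinus m a b (1 : GL ((Fin m ⊕ Fin m) ⊕ Fin 2) F).1 := by
  obtain ⟨K, _, _, hK, -, hnd, L, hL⟩ := exists_K (m := m) a b hab
  rw [presMinus_iff a b K hK, PK_iff, bcG_one]
  exact pres_one _ hnd hL

include hab in
theorem presM_inv (g : GL ((Fin m ⊕ Fin m) ⊕ Fin 2) F) (hg : g ∈ GO ⇑(minusQF m F a b)) :
    Cfsg.PreservesSingularClassesMinus m a b (g⁻¹ : GL ((Fin m ⊕ Fin m) ⊕ Fin 2) F).1 ↔
      Cfsg.PreservesSingularClassesMinus m a b g.1 := by
  have h1 := presM_mul a b hab g g⁻¹ hg (inv_mem hg)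
  rw [mul_inv_cancel] at h1
  exact (h1.1 (presM_one a b hab)).symm

include hab in
theorem presM_scalar (g : GL ((Fin m ⊕ Fin m) ⊕ Fin 2) F) (c : F) (hc : c ≠ 0)
    (hg : g.1 = c • 1) : Cfsg.PreservesSingularClassesMinus m a b g.1 := by
  obtain ⟨K, _, _, hK, -, hnd, L, hL⟩ := exists_K (m := m) a b hab
  rw [presMinus_iff a b K hK, PK_iff]
  refine pres_scalar _ hnd hL _ (algebraMap F K c) (fun h0 => hc ?_) ?_
  · exact (algebraMap F K).injective (by rw [h0, map_zero])
  · rw [bcG_coe, hg]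
    ext i j
    by_cases hij : i = j
    · subst hij; simp
    · simp [hij]

theorem refl_map (K : Type u) [Field K] [Algebra F K] (v : (Fin m ⊕ Fin m) ⊕ Fin 2 → F) :
    (Cfsg.reflectionMatrix ⇑(minusQF m F a b) v).map (algebraMap F K) =
      Cfsg.reflectionMatrix ⇑(minusQF m K (algebraMap F K a) (algebraMap F K b)) (rat K v) := by
  have hc := minus_compat (m := m) (a := a) (b := b) K
  apply matrix_ext_single
  intro s
  rw [← rat_single (F := F) (K := K) s, map_mulVec_rat,
    Cfsg.Agent.Lib.Helper18.reflectionMatrix_mulVec,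
    Cfsg.Agent.Lib.Helper18.reflectionMatrix_mulVec, hc]
  have hp : polar ⇑(minusQF m K (algebraMap F K a) (algebraMap F K b)) (rat K v)
      (rat K (Pi.single s (1 : F))) =
      algebraMap F K (polar ⇑(minusQF m F a b) v (Pi.single s 1)) := by
    unfold polar
    rw [← rat_add, hc, hc, hc, map_sub, map_sub]
  rw [hp]
  funext i
  simp [rat]

include hab in
theorem not_presM_refl (g : GL ((Fin m ⊕ Fin m) ⊕ Fin 2) F) (hg : g ∈ GO ⇑(minusQF m F a b))
    (v : (Fin m ⊕ Fin m) ⊕ Fin 2 → F) (hv : minusQF m F a b v ≠ 0)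
    (hgv : g.1 = Cfsg.reflectionMatrix ⇑(minusQF m F a b) v) :
    ¬ Cfsg.PreservesSingularClassesMinus m a b g.1 := by
  obtain ⟨K, _, _, hK, -, hnd, L, hL⟩ := exists_K (m := m) a b hab
  rw [presMinus_iff a b K hK, PK_iff]
  refine not_pres_refl _ hnd hL _ (bcG_mem a b K g hg) (rat K v) ?_ ?_
  · rw [minus_compat]
    intro h0
    exact hv ((algebraMap F K).injective (by rw [h0, map_zero]))
  · rw [bcG_coe, hgv, refl_map]

end Cfsg.Agent.Lib.Helper66.OMin
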