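import Mathlib
import Cfsg.Agent.Lib.Helper66.OMinB

set_option autoImplicit false
set_option linter.unusedSectionVars false
set_option linter.unusedVariables false
set_option linter.style.haveILetI false

/-!
# Minus type: `Inndiag` as the image of a normal subgroup of `ΓO`
-/

namespace Cfsg.Agent.Lib.Helper66.OMin

open Matrix QuadraticMap Module
open scoped MatrixGroups
open Cfsg.Agent.Lib.Helper49 (minusQF minusQF_coe GamL GamO semiFun glMap coe_glMap cGam
  cGam_induced eq_cGam_of_induced mem_GamO IsLagr)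
open Cfsg.Agent.Lib.Helper6.OA (GO inndiagOf)
open Cfsg.Agent.Lib.Helper18.AutPSL (mp mp_apply mp_eq_map mp_one)
open Cfsg.Agent.Lib.Helper66.OLang (sv sv_apply)
open Cfsg.Agent.Lib.Helper66.OGrp (left_mem_GO inl_mem_GamO)

universe u

variable {F : Type u} [Field F] [Fintype F] {m : ℕ}

theorem det_GL_ne {ι : Type} [Fintype ι] [DecidableEq ι] (g : GL ι F) : g.1.det ≠ 0 := by
  have := g.det.ne_zero
  simpa using this

/-- class preservation is transported by conjugation with semilinear similarities between two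
minus type forms -/
theorem presM_conj (a b a' b' : F) (β : GamL ((Fin m ⊕ Fin m) ⊕ Fin 2) F) (c : F) (hc0 : c ≠ 0)
    (hβ : ∀ v, Cfsg.quadFormMinus m F a' b' (semiFun β v) =
      c * β.right (Cfsg.quadFormMinus m F a b v))
    (d : GamL ((Fin m ⊕ Fin m) ⊕ Fin 2) F) (hd : d.right = 1)
    (hP : Cfsg.PreservesSingularClassesMinus m a b d.left.1) :
    Cfsg.PreservesSingularClassesMinus m a' b' (β * d * β⁻¹).left.1 := by
  obtain ⟨K, _, _, hK, h⟩ := hP
  haveI : Module.Finite F K := Module.finite_of_finrank_pos (by omega)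
  haveI : Finite K := Module.finite_of_finite F
  obtain ⟨τ', hτ'⟩ := exists_ext_aut (K := K) β.right
  refine ⟨K, _, _, hK, transport_minus β.right τ' hτ' a b a' b' β.left.1 (det_GL_ne _) c hc0 hβ
    d.left.1 _ ?_ h⟩
  have h1 : β * d * β⁻¹ * β = β * d := by group
  have h2 := congrArg (fun x : GamL ((Fin m ⊕ Fin m) ⊕ Fin 2) F => x.left.1) h1
  have hr : (β * d * β⁻¹).right = 1 := by
    rw [SemidirectProduct.mul_right, SemidirectProduct.mul_right, hd,
      SemidirectProduct.inv_right]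
    group
  simp only [SemidirectProduct.mul_left (β * d * β⁻¹) β, hr, map_one, MulAut.one_apply,
    SemidirectProduct.mul_left β d, Units.val_mul, coe_glMap] at h2
  exact h2

variable (a b : F)
  (hab : ∀ z₁ z₂ : F, z₁ ^ 2 + a * z₁ * z₂ + b * z₂ ^ 2 = 0 → z₁ = 0 ∧ z₂ = 0)

/-- the class-preserving similarities inside `ΓO` -/
def DM : Subgroup ↥(GamO ⇑(minusQF m F a b)) where
  carrier := {γ | γ.1.right = 1 ∧ Cfsg.PreservesSingularClassesMinus m a b γ.1.left.1}
  mul_mem' := by
    rintro x y ⟨hx, hPx⟩ ⟨hy, hPy⟩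
    refine ⟨?_, ?_⟩
    · show (x.1 * y.1).right = 1
      rw [SemidirectProduct.mul_right, hx, hy, one_mul]
    · show Cfsg.PreservesSingularClassesMinus m a b (x.1 * y.1).left.1
      rw [SemidirectProduct.mul_left, hx, map_one, MulAut.one_apply,
        presM_mul a b hab _ _ (left_mem_GO _ _ x.2 hx) (left_mem_GO _ _ y.2 hy)]
      exact ⟨fun _ => hPy, fun _ => hPx⟩
  one_mem' := ⟨rfl, presM_one a b hab⟩
  inv_mem' := by
    rintro x ⟨hx, hPx⟩
    refine ⟨?_, ?_⟩
    · show (x.1⁻¹).right = 1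
      rw [SemidirectProduct.inv_right, hx, inv_one]
    · show Cfsg.PreservesSingularClassesMinus m a b (x.1⁻¹).left.1
      rw [SemidirectProduct.inv_left, hx, inv_one, map_one, MulAut.one_apply,
        presM_inv a b hab _ (left_mem_GO _ _ x.2 hx)]
      exact hPx

theorem mem_DM (γ : ↥(GamO ⇑(minusQF m F a b))) : γ ∈ DM a b hab ↔
    γ.1.right = 1 ∧ Cfsg.PreservesSingularClassesMinus m a b γ.1.left.1 := Iff.rfl

theorem DM_normal : (DM (m := m) a b hab).Normal := by
  constructor
  rintro d ⟨hd, hP⟩ γ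
  obtain ⟨c, hc⟩ := (mem_GamO _).1 γ.2
  have hc' : ∀ v, Cfsg.quadFormMinus m F a b (semiFun γ.1 v) =
      c * γ.1.right (Cfsg.quadFormMinus m F a b v) := by
    intro v
    have := hc v
    rwa [congrFun (minusQF_coe m F a b) _, congrFun (minusQF_coe m F a b) _] at this
  refine ⟨?_, presM_conj a b a b γ.1 c c.ne_zero hc' d.1 hd hP⟩
  show (γ.1 * d.1 * γ.1⁻¹).right = 1
  rw [SemidirectProduct.mul_right, SemidirectProduct.mul_right, hd, SemidirectProduct.inv_right]
  group

/-- `Inndiag` is the image of `DM` -/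
theorem inndiag_eq_minus :
    inndiagOf ⇑(minusQF m F a b) (Cfsg.PreservesSingularClassesMinus m a b) =
      (DM a b hab).map (cGam ⇑(minusQF m F a b)) := by
  unfold inndiagOf Cfsg.autSubgroupOf
  apply le_antisymm
  · rw [Subgroup.closure_le]
    rintro β ⟨g, hg, hP, hβ⟩
    refine ⟨⟨SemidirectProduct.inl g, inl_mem_GamO _ g hg⟩, ⟨rfl, hP⟩, ?_⟩
    exact (eq_cGam_of_induced _ ⟨SemidirectProduct.inl g, inl_mem_GamO _ g hg⟩ β hβ).symm
  · rintro _ ⟨γ, ⟨hγ, hP⟩, rfl⟩
    apply Subgroup.subset_closure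
    refine ⟨γ.1.left, left_mem_GO _ _ γ.2 hγ, hP, ?_⟩
    have := cGam_induced _ γ
    rw [hγ] at this
    exact this

end Cfsg.Agent.Lib.Helper66.OMin
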