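import Mathlib
import Cfsg.Agent.Lib.Helper66.OMinC
import Cfsg.Agent.Lib.Helper74.OPsi0
import Cfsg.Agent.S2696

set_option autoImplicit false
set_option linter.unusedSectionVars false
set_option linter.unusedVariables false
set_option linter.style.haveILetI false

/-!
# Minus type: any isomorphism between the groups of two minus type forms respects `Inndiag`
-/

namespace Cfsg.Agent.Lib.Helper66.OMin

open Matrix QuadraticMap Module
open scoped MatrixGroups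
open Cfsg.Agent.Lib.Helper49 (minusQF minusQF_coe GamL GamO semiFun semiFun_mul semiFun_inl
  semiFun_semiFun_inv glMap coe_glMap cGam
  cGam_induced eq_cGam_of_induced mem_GamO IsLagr minusQF_nondegenerate not_isLagr_minusQF
  gammaPOmega_eq_range)
open Cfsg.Agent.Lib.Helper6.OA (GO inndiagOf)
open Cfsg.Agent.Lib.Helper18.AutPSL (mp mp_apply mp_eq_map mp_one nrm nrm_succ nrm_zero)
open Cfsg.Agent.Lib.Helper50.Quad
open Cfsg.Agent.Lib.Helper66.OLang (sv sv_apply colM colM_mulVec colM_single exists_full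
  exists_lagr_of_full nondeg_smul isLagr_of_smul Qgen_eq_minusQF)
open Cfsg.Agent.Lib.Helper66.OGrp (left_mem_GO inl_mem_GamO)

section gram

variable {ι : Type} [Fintype ι] [DecidableEq ι] {F : Type*} [Field F]

theorem sim_of_gram2 (Q' Q : QuadraticForm F (ι → F)) (d : F) (hd0 : d ≠ 0) (col : ι → (ι → F))
    (h1 : ∀ s, (d⁻¹ • Q') (col s) = Q (Pi.single s 1))
    (h2 : ∀ s t, polar (d⁻¹ • Q') (col s) (col t) = polar Q (Pi.single s 1) (Pi.single t 1))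
    (v : ι → F) : Q' (colM col *ᵥ v) = d * Q v := by
  have h := map_sum_eq (d⁻¹ • Q') Q col (fun s => Pi.single s (1 : F)) h1 h2 v Finset.univ
  rw [← colM_mulVec, ← eq_sum_single] at h
  rw [← h]
  simp only [_root_.smul_apply, smul_eq_mul]
  field_simp

theorem det_ne_zero_of_sim2 (Q' Q : QuadraticForm F (ι → F)) (hQ : (polarBilin Q).Nondegenerate)
    (b : Matrix ι ι F) (d : F) (hd0 : d ≠ 0) (hb : ∀ v, Q' (b *ᵥ v) = d * Q v) : b.det ≠ 0 := by
  have hpol : ∀ u v, polar Q' (b *ᵥ u) (b *ᵥ v) = d * polar Q u v := by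
    intro u v
    unfold polar
    rw [← Matrix.mulVec_add, hb, hb, hb]
    ring
  have hinj : Function.Injective (Matrix.mulVecLin b) := by
    rw [injective_iff_map_eq_zero]
    intro v hv
    rw [Matrix.mulVecLin_apply] at hv
    apply hQ.1
    intro w
    have := hpol v w
    rw [hv, polar_zero_left] at this
    rw [polarBilin_apply_apply]
    rcases mul_eq_zero.1 this.symm with h | h
    · exact absurd h hd0
    · exact h
  have h1 : Function.Injective (fun v : ι → F => b *ᵥ v) := hinj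
  have h2 := Matrix.mulVec_injective_iff_isUnit.1 h1
  exact isUnit_iff_ne_zero.1 ((Matrix.isUnit_iff_isUnit_det _).1 h2)

/-- conjugation by a similarity `Q → Q'` maps `ΓO(Q)` to `ΓO(Q')` -/
theorem conj_mem_GamO (Q Q' : (ι → F) → F) (B : GL ι F) (e : Fˣ)
    (hB : ∀ v, Q' ((B : Matrix ι ι F) *ᵥ v) = (e : F) * Q v) (x : GamL ι F) (hx : x ∈ GamO Q) :
    SemidirectProduct.inl B * x * (SemidirectProduct.inl B)⁻¹ ∈ GamO Q' := by
  obtain ⟨c, hc⟩ := (mem_GamO Q).1 hx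
  refine (mem_GamO Q').2 ⟨e * c * Units.map (x.right : F →* F) e⁻¹, fun w => ?_⟩
  have h1 : Q' w = e * Q (semiFun (SemidirectProduct.inl B : GamL ι F)⁻¹ w) := by
    rw [← hB, ← semiFun_inl, semiFun_semiFun_inv]
  have hr : (SemidirectProduct.inl B * x * (SemidirectProduct.inl B)⁻¹ : GamL ι F).right =
      x.right := by
    simp
  rw [semiFun_mul, semiFun_mul, semiFun_inl, hB, hc, hr, h1, map_mul]
  simp only [Units.val_mul, Units.coe_map, MonoidHom.coe_coe, Units.val_inv_eq_inv_val, map_inv₀]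
  have he : x.right (e : F) ≠ 0 := by simp
  field_simp

end gram

universe u

variable {F : Type u} [Field F] [Fintype F] {m : ℕ}

/-- two minus type forms are similar -/
theorem exists_sim_minus (a b a' b' : F)
    (hab : ∀ z₁ z₂ : F, z₁ ^ 2 + a * z₁ * z₂ + b * z₂ ^ 2 = 0 → z₁ = 0 ∧ z₂ = 0)
    (hab' : ∀ z₁ z₂ : F, z₁ ^ 2 + a' * z₁ * z₂ + b' * z₂ ^ 2 = 0 → z₁ = 0 ∧ z₂ = 0) :
    ∃ (B : GL ((Fin m ⊕ Fin m) ⊕ Fin 2) F) (e : Fˣ),
      ∀ v, minusQF m F a' b' (B.1 *ᵥ v) = (e : F) * minusQF m F a b v := by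
  have hQ : (polarBilin (minusQF m F a b)).Nondegenerate :=
    minusQF_nondegenerate m F a b (Cfsg.Agent.Lib.Helper49.minus_disc_ne_zero a b hab)
  have hQ' : (polarBilin (minusQF m F a' b')).Nondegenerate :=
    minusQF_nondegenerate m F a' b' (Cfsg.Agent.Lib.Helper49.minus_disc_ne_zero a' b' hab')
  obtain ⟨d, hd0, h⟩ := exists_full (1 : F ≃+* F) 1 one_pos orderOf_one
    (1 : Matrix ((Fin m ⊕ Fin m) ⊕ Fin 2) ((Fin m ⊕ Fin m) ⊕ Fin 2) F) (minusQF m F a' b') hQ'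
    (fun v => rfl) 1 (fun v => by rw [Matrix.one_mulVec, one_mul])
    (by rw [nrm_succ, nrm_zero, map_one, Matrix.one_mul]) m (by simp; ring) a b rfl rfl
    (fun z₁ z₂ _ _ h => hab z₁ z₂ h)
  rcases h with ⟨x, hx, -, -⟩ | ⟨x, hx, -, -, -⟩
  · exfalso
    obtain ⟨L, hL⟩ := exists_lagr_of_full (d⁻¹ • minusQF m F a' b')
      (nondeg_smul _ hQ' _ (inv_ne_zero hd0)) (m + 1) (by simp; ring) x hx
    exact not_isLagr_minusQF a' b' hab' hQ' L (isLagr_of_smul _ _ (inv_ne_zero hd0) hL)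
  · obtain ⟨g1, g2⟩ := gram_of_full (T2 1 a b) m ⊤ x hx
    rw [Qgen_eq_minusQF] at g1 g2
    have hsim := sim_of_gram2 (minusQF m F a' b') (minusQF m F a b) d hd0 _ g1 g2
    exact ⟨GeneralLinearGroup.mkOfDetNeZero _ (det_ne_zero_of_sim2 _ _ hQ _ d hd0 hsim),
      Units.mk0 d hd0, hsim⟩

theorem cGam_surjective (hm : 3 ≤ m) (a b : F)
    (hab : ∀ z₁ z₂ : F, z₁ ^ 2 + a * z₁ * z₂ + b * z₂ ^ 2 = 0 → z₁ = 0 ∧ z₂ = 0) :
    Function.Surjective (cGam ⇑(minusQF m F a b)) := by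
  rw [← MonoidHom.range_eq_top, ← gammaPOmega_eq_range, minusQF_coe]
  exact Cfsg.Agent.S2696.result hm a b hab

theorem transport_aux (hm : 3 ≤ m) (a b a' b' : F)
    (hab : ∀ z₁ z₂ : F, z₁ ^ 2 + a * z₁ * z₂ + b * z₂ ^ 2 = 0 → z₁ = 0 ∧ z₂ = 0)
    (hab' : ∀ z₁ z₂ : F, z₁ ^ 2 + a' * z₁ * z₂ + b' * z₂ ^ 2 = 0 → z₁ = 0 ∧ z₂ = 0)
    (ψ : Cfsg.POmega F ⇑(minusQF m F a b) ≃* Cfsg.POmega F ⇑(minusQF m F a' b'))
    (δ : MulAut (Cfsg.POmega F ⇑(minusQF m F a b)))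
    (hδ : δ ∈ inndiagOf ⇑(minusQF m F a b) (Cfsg.PreservesSingularClassesMinus m a b)) :
    (ψ.symm.trans δ).trans ψ ∈
      inndiagOf ⇑(minusQF m F a' b') (Cfsg.PreservesSingularClassesMinus m a' b') := by
  rw [inndiag_eq_minus a b hab] at hδ
  rw [inndiag_eq_minus a' b' hab']
  obtain ⟨B, e, hB⟩ := exists_sim_minus (m := m) a b a' b' hab hab'
  obtain ⟨ψ₀, hψ₀⟩ := Cfsg.Agent.Lib.Helper74.OPsi.exists_psi0 ⇑(minusQF m F a b)
    ⇑(minusQF m F a' b') B e hB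
  have hN : ((DM a b hab).map (cGam ⇑(minusQF m F a b))).Normal :=
    (DM_normal a b hab).map _ (cGam_surjective hm a b hab)
  obtain ⟨α, hα⟩ : ∃ α : MulAut (Cfsg.POmega F ⇑(minusQF m F a b)), α = ψ.trans ψ₀.symm :=
    ⟨_, rfl⟩
  obtain ⟨d, hd, hdeq⟩ := hN.conj_mem δ hδ α
  have hB' : ∀ v, Cfsg.quadFormMinus m F a' b' (semiFun (SemidirectProduct.inl B) v) =
      (e : F) * (SemidirectProduct.inl B : GamL ((Fin m ⊕ Fin m) ⊕ Fin 2) F).right
        (Cfsg.quadFormMinus m F a b v) := by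
    intro v
    rw [semiFun_inl, ← minusQF_coe, ← minusQF_coe, hB]
    rfl
  refine ⟨⟨_, conj_mem_GamO _ _ B e hB d.1 d.2⟩, ⟨?_, ?_⟩, ?_⟩
  · show (SemidirectProduct.inl B * d.1 * (SemidirectProduct.inl B)⁻¹ :
      GamL ((Fin m ⊕ Fin m) ⊕ Fin 2) F).right = 1
    rw [SemidirectProduct.mul_right, SemidirectProduct.mul_right, hd.1]
    simp
  · exact presM_conj a b a' b' (SemidirectProduct.inl B) e e.ne_zero hB' d.1 hd.1 hd.2
  · ext t
    have h1 := hψ₀ d ⟨_, conj_mem_GamO _ _ B e hB d.1 d.2⟩ rfl (ψ₀.symm t)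
    rw [MulEquiv.apply_symm_apply] at h1
    rw [← h1, hdeq, hα]
    simp [MulAut.mul_apply, MulAut.inv_def]

/-- **Transport of `Inndiag`** along an arbitrary isomorphism. -/
theorem transport (hm : 3 ≤ m) (a b a' b' : F)
    (hab : ∀ z₁ z₂ : F, z₁ ^ 2 + a * z₁ * z₂ + b * z₂ ^ 2 = 0 → z₁ = 0 ∧ z₂ = 0)
    (hab' : ∀ z₁ z₂ : F, z₁ ^ 2 + a' * z₁ * z₂ + b' * z₂ ^ 2 = 0 → z₁ = 0 ∧ z₂ = 0)
    (ψ : Cfsg.POmega F ⇑(minusQF m F a b) ≃* Cfsg.POmega F ⇑(minusQF m F a' b'))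
    (δ : MulAut (Cfsg.POmega F ⇑(minusQF m F a b))) :
    δ ∈ inndiagOf ⇑(minusQF m F a b) (Cfsg.PreservesSingularClassesMinus m a b) ↔
      (ψ.symm.trans δ).trans ψ ∈
        inndiagOf ⇑(minusQF m F a' b') (Cfsg.PreservesSingularClassesMinus m a' b') := by
  refine ⟨transport_aux hm a b a' b' hab hab' ψ δ, fun h => ?_⟩
  have h1 := transport_aux hm a' b' a b hab' hab ψ.symm _ h
  have h2 : (ψ.symm.symm.trans ((ψ.symm.trans δ).trans ψ)).trans ψ.symm = δ := by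
    ext t
    simp
  rwa [h2] at h1

end Cfsg.Agent.Lib.Helper66.OMin
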