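import Mathlib
import Cfsg.Agent.Lib.Helper66.OMinD
import Cfsg.Agent.Lib.Helper66.OGrpD

set_option autoImplicit false
set_option linter.unusedSectionVars false
set_option linter.unusedVariables false
set_option linter.style.haveILetI false

/-!
# Coset conjugacy for `PΩ⁻`
-/

namespace Cfsg.Agent.Lib.Helper66.OMin

open Matrix QuadraticMap Module
open scoped MatrixGroups
open Cfsg.Agent.Lib.Helper49 (minusQF minusQF_coe GamL GamO semiFun glMap coe_glMap cGam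
  cGam_induced eq_cGam_of_induced mem_GamO IsLagr minusQF_nondegenerate ker_cGam scalHom
  scalHom_left scalHom_right cGam_scalHom)
open Cfsg.Agent.Lib.Helper6.OA (GO O_le_GO inndiagOf)
open Cfsg.Agent.Lib.Helper18.AutPSL (mp mp_apply mp_eq_map mp_one mp_smul nrm nrm_zero nrm_succ
  nrm_succ' nrm_smul nrmS nrmS_surj)
open Cfsg.Agent.Lib.Helper66.OLang (sv sv_add sv_smul sv_single sv_mulVec sv_minus lang_minus
  matrix_ext_single)
open Cfsg.Agent.Lib.Helper66.OGrp (left_mem_GO inl_mem_GamO gG conj_eq pow_left pow_right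
  coset_conj orderOf_of_isConjUnder)

section generic

variable {ι : Type} [Fintype ι] [DecidableEq ι] {F : Type*} [Field F]
variable (Q : QuadraticForm F (ι → F)) (σ : F ≃+* F)
  (hσQ : ∀ v : ι → F, Q (fun i => σ (v i)) = σ (Q v))

include hσQ in
theorem inr_mem1 : (SemidirectProduct.inr σ : GamL ι F) ∈ GamO ⇑Q := by
  refine (mem_GamO _).2 ⟨1, fun v => ?_⟩
  unfold semiFun
  simp only [SemidirectProduct.left_inr, SemidirectProduct.right_inr, Units.val_one,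
    Matrix.one_mulVec, one_mul]
  exact hσQ v

/-- the standard field automorphism in `ΓO` -/
def gS1 : ↥(GamO ⇑Q) := ⟨SemidirectProduct.inr σ, inr_mem1 Q σ hσQ⟩

include hσQ in
theorem mp_refl1 (v : ι → F) (hv : sv σ v = v) :
    mp σ (Cfsg.reflectionMatrix ⇑Q v) = Cfsg.reflectionMatrix ⇑Q v := by
  have hfix : ∀ w : ι → F, sv σ w = w → σ (Q w) = Q w := by
    intro w hw
    rw [← hσQ w]
    exact congrArg Q hw
  apply matrix_ext_single
  intro s
  have h1 : mp σ (Cfsg.reflectionMatrix ⇑Q v) *ᵥ Pi.single s 1 =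
      sv σ (Cfsg.reflectionMatrix ⇑Q v *ᵥ Pi.single s 1) := by
    rw [sv_mulVec, sv_single]
  rw [h1, Cfsg.Agent.Lib.Helper18.reflectionMatrix_mulVec]
  have h2 : (Pi.single s 1 - ((Q v)⁻¹ * polar ⇑Q v (Pi.single s 1)) • v : ι → F) =
      Pi.single s 1 + (-((Q v)⁻¹ * polar ⇑Q v (Pi.single s 1))) • v := by
    rw [neg_smul]; abel
  rw [h2, sv_add, sv_smul, sv_single, hv]
  congr 2
  rw [map_neg, map_mul, map_inv₀, hfix v hv]
  congr 2
  unfold polar
  rw [map_sub, map_sub, hfix v hv, hfix _ (sv_single σ s),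
    hfix _ (by rw [sv_add, hv, sv_single])]

theorem field_eq1 (φ : Cfsg.POmega F ⇑Q ≃* Cfsg.POmega F ⇑Q)
    (h : Cfsg.IsFieldAutPOmegaOf ⇑Q σ φ) : φ = cGam ⇑Q (gS1 Q σ hσQ) := by
  apply eq_cGam_of_induced
  intro s s' hs
  apply h
  rw [hs]
  show (1 : GL ι F).1 * _ * ((1 : GL ι F)⁻¹).1 = _
  simp only [inv_one, Units.val_one, Matrix.one_mul, Matrix.mul_one]
  rfl

theorem gG_comm_gS1 (g : GL ι F) (hg : g ∈ GO ⇑Q) (h : mp σ g.1 = g.1) :
    gG Q g hg * gS1 Q σ hσQ = gS1 Q σ hσQ * gG Q g hg := by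
  apply Subtype.ext
  show (SemidirectProduct.inl g * SemidirectProduct.inr σ : GamL ι F) =
    SemidirectProduct.inr σ * SemidirectProduct.inl g
  ext1
  · apply Units.ext
    simp only [SemidirectProduct.mul_left, SemidirectProduct.left_inl, SemidirectProduct.right_inl,
      SemidirectProduct.left_inr, SemidirectProduct.right_inr, map_one, one_mul, mul_one,
      coe_glMap]
    exact h.symm
  · simp

end generic

universe u

variable {F : Type u} [Field F] [Fintype F] {m : ℕ}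

theorem hσQ_minus (a b : F) (σ : F ≃+* F) (ha : σ a = a) (hb : σ b = b)
    (v : (Fin m ⊕ Fin m) ⊕ Fin 2 → F) :
    minusQF m F a b (fun i => σ (v i)) = σ (minusQF m F a b v) := sv_minus σ a b ha hb v

set_option maxHeartbeats 1600000 in
/-- **The core, minus type.** -/
theorem core_minus (hm : 3 ≤ m) (a b : F)
    (hab : ∀ z₁ z₂ : F, z₁ ^ 2 + a * z₁ * z₂ + b * z₂ ^ 2 = 0 → z₁ = 0 ∧ z₂ = 0)
    (σ : F ≃+* F) (ha : σ a = a) (hb : σ b = b) (r : ℕ) (hr0 : 0 < r) (hr : orderOf σ = r)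
    (d : ↥(GamO ⇑(minusQF m F a b))) (hd : d ∈ DM a b hab)
    (h : (cGam ⇑(minusQF m F a b) (d * gS1 _ σ (hσQ_minus a b σ ha hb))) ^ r = 1) :
    ∃ h ∈ DM a b hab, cGam ⇑(minusQF m F a b) (d * gS1 _ σ (hσQ_minus a b σ ha hb)) =
      cGam ⇑(minusQF m F a b) (h * gS1 _ σ (hσQ_minus a b σ ha hb) * h⁻¹) := by
  have hQ : (polarBilin (minusQF m F a b)).Nondegenerate :=
    minusQF_nondegenerate m F a b (Cfsg.Agent.Lib.Helper49.minus_disc_ne_zero a b hab)
  have hcard : 7 ≤ Fintype.card ((Fin m ⊕ Fin m) ⊕ Fin 2) := by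
    simp only [Fintype.card_sum, Fintype.card_fin]; omega
  obtain ⟨Φ, hΦ⟩ : ∃ Φ, Φ = gS1 _ σ (hσQ_minus (m := m) a b σ ha hb) := ⟨_, rfl⟩
  rw [← hΦ] at h ⊢
  have hΦr : Φ.1.right = σ := by rw [hΦ]; rfl
  have hΦl : Φ.1.left = 1 := by rw [hΦ]; rfl
  obtain ⟨γ, hγd⟩ : ∃ γ, γ = d * Φ := ⟨_, rfl⟩
  rw [← hγd] at h ⊢
  have hγ : γ.1.right = σ := by
    rw [hγd]
    show (d.1 * Φ.1).right = σ
    rw [SemidirectProduct.mul_right, hd.1, hΦr, one_mul]
  have hγl : γ.1.left = d.1.left := by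
    rw [hγd]
    show (d.1 * Φ.1).left = d.1.left
    rw [SemidirectProduct.mul_left, hΦl, map_one, mul_one]
  obtain ⟨c, hc⟩ := left_mem_GO _ _ d.2 hd.1
  rw [← hγl] at hc
  have hker : cGam ⇑(minusQF m F a b) (γ ^ r) = 1 := by rw [map_pow]; exact h
  obtain ⟨-, lam, hlam⟩ := ker_cGam _ hQ hcard (γ ^ r) hker
  have hσr : σ ^ r = 1 := by rw [← hr]; exact pow_orderOf_eq_one σ
  have hN : nrm σ γ.1.left.1 r = (lam : F) • 1 := by
    rw [← hγ, ← pow_left]
    exact hlam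
  have hfix : σ (lam : F) = lam := by
    have h1 := nrm_succ σ γ.1.left.1 r
    rw [nrm_succ', hσr, mp_one, hN, mp_smul, map_one, Matrix.smul_mul, Matrix.one_mul,
      Matrix.mul_smul, Matrix.mul_one] at h1
    have h2 := congrArg (fun M => M * (γ.1.left⁻¹).1) h1
    simp only [Matrix.smul_mul, Units.mul_inv] at h2
    have h3 := congrFun (congrFun h2 (Sum.inr 0)) (Sum.inr 0)
    simpa using h3.symm
  obtain ⟨ν, hν0, hν⟩ := nrmS_surj σ r hr0 hr (lam : F)⁻¹ (inv_ne_zero lam.ne_zero)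
    (by rw [map_inv₀, hfix])
  obtain ⟨B, e, he0, hdet, hsim, hB⟩ := lang_minus σ r hr0 hr a b ha hb hab
    (ν • γ.1.left.1) (ν * ν * c) (by
      intro v
      rw [← minusQF_coe, Matrix.smul_mulVec, QuadraticMap.map_smul, hc, smul_eq_mul]; ring)
    (by rw [nrm_smul, hν, hN, smul_smul, inv_mul_cancel₀ lam.ne_zero, one_smul])
  rw [← minusQF_coe] at hsim
  have hBu : GeneralLinearGroup.mkOfDetNeZero B hdet ∈ GO ⇑(minusQF m F a b) :=
    ⟨Units.mk0 e he0, hsim⟩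
  obtain ⟨b₀, hbdef⟩ : ∃ b₀, b₀ = gG (minusQF m F a b) _ hBu := ⟨_, rfl⟩
  have hbr : b₀.1.right = 1 := by rw [hbdef]; rfl
  have hbl : b₀.1.left.1 = B := by rw [hbdef]; rfl
  obtain ⟨z, hzdef⟩ : ∃ z, z = scalHom (minusQF m F a b) (Units.mk0 ν hν0) := ⟨_, rfl⟩
  have hzr : z.1.right = 1 := by rw [hzdef]; rfl
  have hzl : z.1.left.1 = ν • 1 := by rw [hzdef, scalHom_left]; rfl
  have hcz : cGam ⇑(minusQF m F a b) z = 1 := by rw [hzdef, cGam_scalHom]
  have e1 : z * γ = b₀ * Φ * b₀⁻¹ := conj_eq _ γ b₀ Φ z hzr hbr (by rw [hγ, hΦr]) (by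
    rw [hzl, hbl, hγ, Matrix.smul_mul, Matrix.one_mul, hB, hΦl, Units.val_one, Matrix.mul_one])
  have e2 : cGam ⇑(minusQF m F a b) γ = cGam ⇑(minusQF m F a b) (b₀ * Φ * b₀⁻¹) := by
    rw [← e1, map_mul, hcz, one_mul]
  by_cases hP : Cfsg.PreservesSingularClassesMinus m a b b₀.1.left.1
  · exact ⟨b₀, ⟨hbr, hP⟩, e2⟩
  · -- correct by a reflection commuting with the field automorphism
    obtain ⟨v₀, hv₀⟩ : ∃ v₀ : (Fin m ⊕ Fin m) ⊕ Fin 2 → F, v₀ = Pi.single (Sum.inr 0) 1 :=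
      ⟨_, rfl⟩
    have hQv : minusQF m F a b v₀ ≠ 0 := by
      rw [hv₀, minusQF_coe]
      simp [Cfsg.quadFormMinus]
    have hsv : sv σ v₀ = v₀ := by rw [hv₀, sv_single]
    have htGO : (Cfsg.Agent.Lib.Helper18.refl (minusQF m F a b) v₀).1 ∈ GO ⇑(minusQF m F a b) :=
      O_le_GO _ (Cfsg.Agent.Lib.Helper18.refl (minusQF m F a b) v₀).2
    obtain ⟨t, htdef⟩ : ∃ t, t = gG (minusQF m F a b) _ htGO := ⟨_, rfl⟩
    have htr : t.1.right = 1 := by rw [htdef]; rfl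
    have htP : ¬ Cfsg.PreservesSingularClassesMinus m a b t.1.left.1 := by
      rw [htdef]
      exact not_presM_refl a b hab _ htGO v₀ hQv rfl
    have htΦ : t * Φ = Φ * t := by
      rw [htdef, hΦ]
      exact gG_comm_gS1 _ σ _ _ htGO (mp_refl1 _ σ (hσQ_minus a b σ ha hb) v₀ hsv)
    refine ⟨b₀ * t, ⟨?_, ?_⟩, ?_⟩
    · show (b₀.1 * t.1).right = 1
      rw [SemidirectProduct.mul_right, hbr, htr, one_mul]
    · show Cfsg.PreservesSingularClassesMinus m a b (b₀.1 * t.1).left.1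
      rw [SemidirectProduct.mul_left, hbr, map_one, MulAut.one_apply,
        presM_mul a b hab _ _ (left_mem_GO _ _ b₀.2 hbr) (left_mem_GO _ _ t.2 htr)]
      exact ⟨fun h => absurd h hP, fun h => absurd h htP⟩
    · rw [e2]
      congr 1
      have : b₀ * t * Φ * (b₀ * t)⁻¹ = b₀ * (t * Φ) * t⁻¹ * b₀⁻¹ := by group
      rw [this, htΦ]
      group

end Cfsg.Agent.Lib.Helper66.OMin
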